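import Mathlib.GroupTheory.Sylow
import Mathlib.GroupTheory.Transfer
import Mathlib.Tactic.Group
import Cfsg.Agent.PGroup.Basic

/-!
Elementary facts on elements acting trivially on chief factors, used for isolated elements in rank two.
-/

set_option autoImplicit false
set_option linter.style.haveILetI false
set_option linter.unusedSectionVars false
set_option linter.unusedVariables false

namespace Cfsg.Agent.IsoRankTwo

variable {G : Type*} [Group G]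

/-- The elements of `N` acting trivially on `A/K`. -/
def actSub (N A K : Subgroup G) (hA : ∀ n ∈ N, ∀ a ∈ A, n * a * n⁻¹ ∈ A)
    (hK : ∀ n ∈ N, ∀ a ∈ K, n * a * n⁻¹ ∈ K) : Subgroup G where
  carrier := {n | n ∈ N ∧ ∀ a ∈ A, n * a * n⁻¹ * a⁻¹ ∈ K}
  one_mem' := ⟨N.one_mem, fun a _ => by simp⟩
  mul_mem' := by
    rintro m n ⟨hm, hm'⟩ ⟨hn, hn'⟩
    refine ⟨N.mul_mem hm hn, fun a ha => ?_⟩
    have h1 := hK m hm _ (hn' a ha)
    have h2 := hm' a ha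
    have e : m * n * a * (m * n)⁻¹ * a⁻¹ = m * (n * a * n⁻¹ * a⁻¹) * m⁻¹ * (m * a * m⁻¹ * a⁻¹) := by
      group
    rw [e]
    exact K.mul_mem h1 h2
  inv_mem' := by
    rintro n ⟨hn, hn'⟩
    refine ⟨N.inv_mem hn, fun a ha => ?_⟩
    have h1 := hK n⁻¹ (N.inv_mem hn) _ (K.inv_mem (hn' a ha))
    have e : n⁻¹ * a * n⁻¹⁻¹ * a⁻¹ = n⁻¹ * (n * a * n⁻¹ * a⁻¹)⁻¹ * n⁻¹⁻¹ := by group
    rw [e]
    exact h1

theorem mem_actSub {N A K : Subgroup G} {hA : ∀ n ∈ N, ∀ a ∈ A, n * a * n⁻¹ ∈ A}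
    {hK : ∀ n ∈ N, ∀ a ∈ K, n * a * n⁻¹ ∈ K} {n : G} :
    n ∈ actSub N A K hA hK ↔ n ∈ N ∧ ∀ a ∈ A, n * a * n⁻¹ * a⁻¹ ∈ K := Iff.rfl

/-- `actSub` is stable under conjugation by elements of `N`. -/
theorem conj_mem_actSub {N A K : Subgroup G} {hA : ∀ n ∈ N, ∀ a ∈ A, n * a * n⁻¹ ∈ A}
    {hK : ∀ n ∈ N, ∀ a ∈ K, n * a * n⁻¹ ∈ K} {g n : G} (hg : g ∈ N)
    (hn : n ∈ actSub N A K hA hK) : g * n * g⁻¹ ∈ actSub N A K hA hK := by
  refine ⟨N.mul_mem (N.mul_mem hg hn.1) (N.inv_mem hg), fun a ha => ?_⟩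
  have h1 := hK g hg _ (hn.2 _ (hA g⁻¹ (N.inv_mem hg) a ha))
  have e : g * n * g⁻¹ * a * (g * n * g⁻¹)⁻¹ * a⁻¹ =
      g * (n * (g⁻¹ * a * g⁻¹⁻¹) * n⁻¹ * (g⁻¹ * a * g⁻¹⁻¹)⁻¹) * g⁻¹ := by group
  rw [e]
  exact h1

/-- Coprime stabiliser of a two step series. -/
theorem centralizes_step {p : ℕ} {n : G} {A K : Subgroup G} (hcop : (orderOf n).Coprime p)
    (hK : ∀ c ∈ K, n * c * n⁻¹ = c) (hKp : IsPGroup p K)
    (hact : ∀ a ∈ A, n * a * n⁻¹ * a⁻¹ ∈ K) : ∀ a ∈ A, n * a * n⁻¹ = a := by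
  intro a ha
  set c := n * a * n⁻¹ * a⁻¹ with hc
  have hcK : c ∈ K := hact a ha
  have hiter : ∀ i : ℕ, n ^ i * a * (n ^ i)⁻¹ = c ^ i * a := by
    intro i
    induction i with
    | zero => simp
    | succ i ih =>
      calc n ^ (i + 1) * a * (n ^ (i + 1))⁻¹ = n * (n ^ i * a * (n ^ i)⁻¹) * n⁻¹ := by
            rw [pow_succ']; group
        _ = (n * c ^ i * n⁻¹) * (c * a) := by
          rw [ih, show c * a = n * a * n⁻¹ by rw [hc]; group]; group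
        _ = c ^ i * (c * a) := by rw [hK _ (pow_mem hcK i)]
        _ = c ^ (i + 1) * a := by rw [pow_succ, mul_assoc (c ^ i) c a]

  have h1 : c ^ orderOf n = 1 := by
    have := hiter (orderOf n)
    rw [pow_orderOf_eq_one, one_mul, inv_one, mul_one] at this
    exact (mul_eq_right.1 this.symm)
  obtain ⟨k, hk⟩ := hKp ⟨c, hcK⟩
  have h2 : c ^ p ^ k = 1 := congrArg Subtype.val hk
  have h3 : orderOf c = 1 := Nat.eq_one_of_dvd_coprimes (hcop.pow_right k)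
    (orderOf_dvd_of_pow_eq_one h1) (orderOf_dvd_of_pow_eq_one h2)
  have h4 : n * a * n⁻¹ * a⁻¹ = 1 := orderOf_eq_one_iff.1 h3
  exact mul_inv_eq_one.1 h4

/-- Two elementary transvections with opposite axes produce an inversion. -/
theorem conj_sq_eq_inv {H : Type*} [Group H] {a b u v : H} (hab : a * b = b * a)
    (hua : u * a * u⁻¹ = a) (hub : u * b * u⁻¹ = a * b)
    (hva : v * a * v⁻¹ = a * b⁻¹) (hvb : v * b * v⁻¹ = b) :
    ((u * v * u) * (u * v * u)) * a * ((u * v * u) * (u * v * u))⁻¹ = a⁻¹ ∧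
      ((u * v * u) * (u * v * u)) * b * ((u * v * u) * (u * v * u))⁻¹ = b⁻¹ := by
  set f := MulAut.conj u with hf
  set g := MulAut.conj v with hg
  have fa : f a = a := hua
  have fb : f b = a * b := hub
  have ga : g a = a * b⁻¹ := hva
  have gb : g b = b := hvb
  have e1 : f (g (f a)) = b⁻¹ := by
    rw [fa, ga, map_mul, fa, map_inv, fb, hab]; group
  have e2 : f (g (f b)) = a := by
    rw [fb, map_mul, ga, gb, inv_mul_cancel_right, fa]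
  have hall : ∀ w, ((u * v * u) * (u * v * u)) * w * ((u * v * u) * (u * v * u))⁻¹ =
      f (g (f (f (g (f w))))) := by
    intro w
    simp only [hf, hg, MulAut.conj_apply]
    group
  refine ⟨?_, ?_⟩
  · rw [hall, e1, map_inv, map_inv, map_inv, e2]
  · rw [hall, e2, e1]

variable [Finite G] {p : ℕ} [hp : Fact p.Prime]

/-- A proper normal factor of a `p`-group has a nontrivial fixed point. -/
theorem exists_fixed_mod {T R K : Subgroup G} (hT : IsPGroup p T) (hKR : K < R) (hRT : R ≤ T)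
    (hR : ∀ t ∈ T, ∀ a ∈ R, t * a * t⁻¹ ∈ R) (hK : ∀ t ∈ T, ∀ a ∈ K, t * a * t⁻¹ ∈ K) :
    ∃ e ∈ R, e ∉ K ∧ ∀ t ∈ T, t * e * t⁻¹ * e⁻¹ ∈ K := by
  haveI hKn : (K.subgroupOf T).Normal := ⟨fun k hk g => hK g g.2 k hk⟩
  haveI hRn : (R.subgroupOf T).Normal := ⟨fun k hk g => hR g g.2 k hk⟩
  set π := QuotientGroup.mk' (K.subgroupOf T) with hπ
  set Rb := (R.subgroupOf T).map π with hRb
  haveI : Rb.Normal := hRn.map π (QuotientGroup.mk'_surjective _)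
  have hb : Rb ≠ ⊥ := by
    obtain ⟨r, hrR, hrK⟩ := SetLike.exists_of_lt hKR
    intro hb
    have h1 : π ⟨r, hRT hrR⟩ ∈ Rb := Subgroup.mem_map_of_mem π hrR
    rw [hb, Subgroup.mem_bot] at h1
    exact hrK ((QuotientGroup.eq_one_iff (N := K.subgroupOf T) (⟨r, hRT hrR⟩ : T)).1 h1)
  have hne := PGroup.inf_center_ne_bot (hT.to_quotient _) Rb hb
  obtain ⟨q, hq, hq1⟩ : ∃ q, q ∈ Rb ⊓ Subgroup.center _ ∧ q ≠ 1 := by
    obtain ⟨q, hq⟩ := Subgroup.ne_bot_iff_exists_ne_one.1 hne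
    exact ⟨q, q.2, fun h => hq (Subtype.ext h)⟩
  obtain ⟨⟨e, he⟩, heR, rfl⟩ := hq.1
  refine ⟨e, heR, fun h => hq1 ((QuotientGroup.eq_one_iff (N := K.subgroupOf T) (⟨e, he⟩ : T)).2 h), fun t ht => ?_⟩
  have h := Subgroup.mem_center_iff.1 hq.2 (π ⟨t, ht⟩)
  have h2 : π (⟨t, ht⟩ * ⟨e, he⟩ * (⟨t, ht⟩ : T)⁻¹ * (⟨e, he⟩ : T)⁻¹) = 1 := by
    rw [map_mul, map_mul, map_mul, map_inv, map_inv, h]; group
  exact (QuotientGroup.eq_one_iff (N := K.subgroupOf T) _).1 h2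

/-- A `p`-group `T` centralises every normal factor of order at most `p`. -/
theorem act_of_prime_step {T R K : Subgroup G} (hT : IsPGroup p T) (hKR : K ≤ R) (hRT : R ≤ T)
    (hR : ∀ t ∈ T, ∀ a ∈ R, t * a * t⁻¹ ∈ R) (hK : ∀ t ∈ T, ∀ a ∈ K, t * a * t⁻¹ ∈ K)
    (hcard : Nat.card R ≤ p * Nat.card K) :
    ∀ t ∈ T, ∀ a ∈ R, t * a * t⁻¹ * a⁻¹ ∈ K := by
  intro t ht a ha
  rcases hKR.eq_or_lt with heq | hlt
  · rw [heq]
    exact R.mul_mem (hR t ht a ha) (R.inv_mem ha)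
  obtain ⟨e, heR, heK, he⟩ := exists_fixed_mod hT hlt hRT hR hK
  set J := K ⊔ Subgroup.zpowers e with hJ
  have hJR : J ≤ R := sup_le hKR (Subgroup.zpowers_le.2 heR)
  have hJcard : p * Nat.card K ≤ Nat.card J := by
    obtain ⟨i, hi⟩ := IsPGroup.iff_card.1 (hT.to_le (hKR.trans hRT))
    obtain ⟨j, hj⟩ := IsPGroup.iff_card.1 (hT.to_le (hJR.trans hRT))
    have hlt' : Nat.card K < Nat.card J := Set.ncard_lt_ncard (s := (K : Set G)) (t := (J : Set G))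
      (SetLike.coe_ssubset_coe.2 (lt_of_le_of_ne le_sup_left fun h => heK (h.ge (Subgroup.mem_sup_right (Subgroup.mem_zpowers e)))))
      (Set.toFinite _)
    rw [hi, hj] at hlt' ⊢
    rw [← pow_succ']
    exact Nat.pow_le_pow_right hp.out.pos ((Nat.pow_lt_pow_iff_right hp.out.one_lt).1 hlt')
  have heq : J = R := Subgroup.eq_of_le_of_card_ge hJR (hcard.trans hJcard)
  let S : Subgroup G :=
    { carrier := {b | b ∈ T ∧ t * b * t⁻¹ * b⁻¹ ∈ K}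
      one_mem' := ⟨T.one_mem, by simp⟩
      mul_mem' := by
        rintro b c ⟨hb, hb'⟩ ⟨hc, hc'⟩
        refine ⟨T.mul_mem hb hc, ?_⟩
        have e : t * (b * c) * t⁻¹ * (b * c)⁻¹ =
            (t * b * t⁻¹ * b⁻¹) * (b * (t * c * t⁻¹ * c⁻¹) * b⁻¹) := by group
        rw [e]
        exact K.mul_mem hb' (hK b hb _ hc')
      inv_mem' := by
        rintro b ⟨hb, hb'⟩
        refine ⟨T.inv_mem hb, ?_⟩
        have e : t * b⁻¹ * t⁻¹ * b⁻¹⁻¹ = b⁻¹ * (t * b * t⁻¹ * b⁻¹)⁻¹ * b⁻¹⁻¹ := by group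
        rw [e]
        exact hK b⁻¹ (T.inv_mem hb) _ (K.inv_mem hb') }
  have hJS : J ≤ S := sup_le (fun k hk => ⟨hRT (hKR hk), K.mul_mem (hK t ht k hk) (K.inv_mem hk)⟩)
    (Subgroup.zpowers_le.2 ⟨hRT heR, he t ht⟩)
  exact (hJS (heq.ge ha)).2

end Cfsg.Agent.IsoRankTwo
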