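import Mathlib.GroupTheory.SpecificGroups.Cyclic
import Cfsg.Prelude.Def_CaseTheorems
import Cfsg.Agent.S0016

/-!
`p`-groups with a central element of order `p` that meets every other element of order `p`.
-/

set_option autoImplicit false

namespace Cfsg.Agent.IsoRankTwo

variable {G : Type*} [Group G] [Finite G]

/-- In a cyclic group two elements of the same order generate the same subgroup. -/
theorem mem_zpowers_of_orderOf_eq {Y : Type*} [Group Y] [Finite Y] [IsCyclic Y] {y z : Y}
    (h : orderOf z = orderOf y) : z ∈ Subgroup.zpowers y := by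
  classical
  cases nonempty_fintype Y
  let hc : IsMulCommutative Y := IsCyclic.isMulCommutative
  let S : Subgroup Y :=
    { carrier := {a | a ^ orderOf y = 1}
      one_mem' := one_pow _
      mul_mem' := fun {a b} (ha : a ^ _ = 1) (hb : b ^ _ = 1) => by
        show (a * b) ^ _ = 1
        rw [(show Commute a b from hc.is_comm.comm a b).mul_pow, ha, hb, one_mul]
      inv_mem' := fun {a} (ha : a ^ _ = 1) => by
        show a⁻¹ ^ _ = 1
        rw [inv_pow, ha, inv_one] }
  have hle : Subgroup.zpowers y ≤ S := Subgroup.zpowers_le.2 (pow_orderOf_eq_one y)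
  have hcard : Nat.card S ≤ Nat.card (Subgroup.zpowers y) := by
    rw [Nat.card_zpowers, Nat.card_eq_fintype_card]
    refine le_trans ?_ (IsCyclic.card_pow_eq_one_le (α := Y) (orderOf_pos y))
    rw [← Finset.card_univ]
    exact Finset.card_le_card_of_injOn Subtype.val
      (fun a _ => by simpa using (a.2 : (a : Y) ^ orderOf y = 1))
      (fun a _ b _ hab => Subtype.ext hab)
  rw [Subgroup.eq_of_le_of_card_ge hle hcard]
  show z ^ orderOf y = 1
  rw [← h, pow_orderOf_eq_one]

/-- A `p`-subgroup, `p` odd, all whose elements of order `p` lie in `zpowers x`, is cyclic. -/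
theorem isCyclic_of_omega_le {p : ℕ} [Fact p.Prime] (hp2 : p ≠ 2) {Y : Subgroup G} {x : G}
    (hY : IsPGroup p Y) (hx : orderOf x = p)
    (h : ∀ y ∈ Y, y ^ p = 1 → y ∈ Subgroup.zpowers x) : IsCyclic Y := by
  have key : ∀ A : Subgroup Y, Nat.card A = p → A.map Y.subtype = Subgroup.zpowers x := by
    intro A hA
    refine Subgroup.eq_of_le_of_card_ge ?_ ?_
    · rintro _ ⟨a, ha, rfl⟩
      refine h _ a.2 ?_
      rw [← hA]
      exact congrArg (fun b : A => ((b : Y) : G)) (pow_card_eq_one' (x := (⟨a, ha⟩ : A)))
    · rw [Subgroup.card_map_of_injective Y.subtype_injective, hA, Nat.card_zpowers, hx]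
  rcases S0016.result p hY (fun A B hA hB =>
    Subgroup.map_injective Y.subtype_injective ((key A hA).trans (key B hB).symm)) with hc | ⟨h2, -⟩
  · exact hc
  · exact absurd h2 hp2

end Cfsg.Agent.IsoRankTwo
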