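import Cfsg.Prelude.Def_CaseTheorems
import Cfsg.Agent.LAE62.Isolated
import Cfsg.Agent.PGroup.Critical
import Cfsg.Agent.OddPre.Rank2
import Cfsg.Agent.FusionAlperin.GroupLemmas
import Cfsg.Agent.Fusion.Basic
import Cfsg.Agent.LAE60.Basic
import Cfsg.Agent.IsoRankTwo.Basic
import Cfsg.Agent.IsoRankTwo.Cyclic

/-!
For `p` odd, `p`-rank at most two and an isolated element of order `p` in the Sylow subgroup `P`,
the normaliser of `P` controls transfer.
-/

set_option autoImplicit false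
set_option linter.style.haveILetI false
set_option linter.unusedSectionVars false
set_option maxHeartbeats 1600000

open scoped commutatorElement

namespace Cfsg.Agent.IsoRankTwo

open FusionAlperin (SylIn exists_sylIn_ge)

variable {G : Type*} [Group G] [Finite G] {p : ℕ} [hp : Fact p.Prime]

/-- Conjugation by `g` fixes the cosets of `M` on `B`. -/
def Good (M B : Subgroup G) (g : G) : Prop :=
  ∀ u ∈ B, u⁻¹ * (g * u * g⁻¹) ∈ M

/-- The elements of the normaliser of `B` fixing the cosets of `M` on `B`. -/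
def goodSub (M B : Subgroup G) : Subgroup G where
  carrier := {n | n ∈ Subgroup.normalizer (B : Set G) ∧ Good M B n}
  one_mem' := ⟨one_mem _, fun u _ => by simp⟩
  mul_mem' := by
    rintro m n ⟨hm, hm'⟩ ⟨hn, hn'⟩
    refine ⟨mul_mem hm hn, fun u hu => ?_⟩
    have h1 := M.mul_mem (hn' u hu) (hm' _ ((Subgroup.mem_normalizer_iff.1 hn u).1 hu))
    convert h1 using 1
    group
  inv_mem' := by
    rintro n ⟨hn, hn'⟩
    refine ⟨inv_mem hn, fun u hu => ?_⟩
    have h1 := M.inv_mem (hn' _ ((Subgroup.mem_normalizer_iff.1 (inv_mem hn) u).1 hu))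
    convert h1 using 1
    group

theorem centralizer_le_goodSub (M B : Subgroup G) :
    Subgroup.centralizer (B : Set G) ≤ goodSub M B := fun c hc =>
  ⟨Subgroup.centralizer_le_normalizer _ hc, fun u hu => by
    rw [← Subgroup.mem_centralizer_iff.1 hc u hu, mul_inv_cancel_right, inv_mul_cancel]
    exact one_mem _⟩

/-- If a normal set `U` contains the Sylow subgroup `T` and its `p'`-elements centralise `B`, everything
follows from `N(T)`. -/
theorem le_goodSub_of_closed {M B T N' U : Subgroup G} (hN' : N' ≤ Subgroup.normalizer (B : Set G))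
    (hT : SylIn p T (Subgroup.normalizer (B : Set G))) (hTU : T ≤ U) (hUN : U ≤ N')
    (hU : ∀ g ∈ N', ∀ u ∈ U, g * u * g⁻¹ ∈ U)
    (hUc : ∀ u ∈ U, (orderOf u).Coprime p → u ∈ Subgroup.centralizer (B : Set G))
    (hTg : T ≤ goodSub M B)
    (hNT : ∀ n ∈ N', (∀ t ∈ T, n * t * n⁻¹ ∈ T) → n ∈ goodSub M B) : N' ≤ goodSub M B := by
  have hJ : U ≤ T ⊔ (U ⊓ Subgroup.centralizer (B : Set G)) := by
    set J := T ⊔ (U ⊓ Subgroup.centralizer (B : Set G)) with hJ
    have hJU : J ≤ U := sup_le hTU inf_le_left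
    refine (Subgroup.eq_of_le_of_card_ge hJU (Nat.le_of_dvd Nat.card_pos ?_)).ge
    rw [Nat.dvd_iff_prime_pow_dvd_dvd]
    intro q k hq hqk
    rcases eq_or_ne q p with rfl | hqp
    · obtain ⟨hle, T', hT'⟩ := hT
      have hcard : Nat.card T = q ^ (Nat.card ↥(Subgroup.normalizer (B : Set G))).factorization q := by
        rw [← Nat.card_congr (Subgroup.subgroupOfEquivOfLe hle).toEquiv, ← hT']
        exact T'.card_eq_multiplicity
      have h1 : q ^ k ∣ Nat.card ↥(Subgroup.normalizer (B : Set G)) :=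
        hqk.trans (Subgroup.card_dvd_of_le (hUN.trans hN'))
      exact ((Nat.pow_dvd_pow q ((hq.pow_dvd_iff_le_factorization Nat.card_pos.ne').1 h1)).trans
        hcard.symm.dvd).trans (Subgroup.card_dvd_of_le le_sup_left)
    · haveI := Fact.mk hq
      obtain ⟨Q, hQ⟩ := Sylow.exists_subgroup_card_pow_prime q hqk
      have hQJ : Q.map U.subtype ≤ J := by
        rintro _ ⟨u, hu, rfl⟩
        refine Subgroup.mem_sup_right ⟨u.2, hUc _ u.2 ?_⟩
        have hd : orderOf (u : G) ∣ q ^ k := by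
          rw [Subgroup.orderOf_coe, ← hQ]
          exact Subgroup.orderOf_dvd_natCard Q hu
        exact Nat.Coprime.coprime_dvd_left hd (((Nat.coprime_primes hq hp.out).2 hqp).pow_left k)
      have := Subgroup.card_dvd_of_le hQJ
      rwa [Subgroup.card_map_of_injective U.subtype_injective, hQ] at this
  have hUW : U ≤ goodSub M B :=
    hJ.trans (sup_le hTg (inf_le_right.trans (centralizer_le_goodSub M B)))
  intro n hn
  obtain ⟨R, hR, hTR⟩ := exists_sylIn_ge hTU hT.isPGroup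
  have hRT : R = T :=
    le_antisymm (hT.le_of_ge (hR.le.trans (hUN.trans hN')) hR.isPGroup hTR) hTR
  rw [hRT] at hR
  obtain ⟨k, hk, hkn⟩ := hR.frattini (fun u hu => hU n hn u hu)
  have h := hNT _ (mul_mem (hUN hk) hn) hkn
  have := mul_mem (inv_mem (hUW hk)) h
  rwa [inv_mul_cancel_left] at this

variable (hp2 : p ≠ 2) (P : Sylow p G) {x : G} (hxP : x ∈ (P : Subgroup G)) (hxo : orderOf x = p)
  (hiso : Cfsg.IsIsolated x) (hrank : Cfsg.PRankLE p 2 G)

include hp2 hxP hxo hiso hrank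

/-- The main step: a fully normalised subgroup containing its centraliser in `P`. -/
theorem good_of_centric {M B : Subgroup G} (hBP : B ≤ (P : Subgroup G))
    (hPM : ∀ a ∈ (P : Subgroup G), ∀ b ∈ (P : Subgroup G), a * b * a⁻¹ * b⁻¹ ∈ M)
    (hT : SylIn p ((P : Subgroup G) ⊓ Subgroup.normalizer (B : Set G)) (Subgroup.normalizer (B : Set G)))
    (hC : ∀ c ∈ (P : Subgroup G), c ∈ Subgroup.centralizer (B : Set G) → c ∈ B)
    (hNT : ∀ n ∈ Subgroup.normalizer (B : Set G),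
      (∀ t ∈ (P : Subgroup G) ⊓ Subgroup.normalizer (B : Set G),
        n * t * n⁻¹ ∈ (P : Subgroup G) ⊓ Subgroup.normalizer (B : Set G)) →
      Good M ((P : Subgroup G) ⊓ Subgroup.normalizer (B : Set G)) n) :
    Subgroup.normalizer (B : Set G) ≤ goodSub M B := by
  classical
  set N := Subgroup.normalizer (B : Set G) with hN
  set T := (P : Subgroup G) ⊓ N with hTdef
  have hTp : IsPGroup p T := P.2.to_le inf_le_left
  have hBp : IsPGroup p B := P.2.to_le hBP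
  have hBT : B ≤ T := le_inf hBP Subgroup.le_normalizer
  have hTg : T ≤ goodSub M B := fun t ht => ⟨ht.2, fun u hu => by
    have := hPM u⁻¹ (inv_mem (hBP hu)) t ht.1
    convert this using 1
    group⟩
  have hNT' : ∀ n ∈ N, (∀ t ∈ T, n * t * n⁻¹ ∈ T) → n ∈ goodSub M B := fun n hn h =>
    ⟨hn, fun u hu => hNT n hn h u (hBT hu)⟩
  -- the isolated element
  have hxc : ∀ u ∈ (P : Subgroup G), Commute x u := fun u hu =>
    LAE62.isolated_commute_of_mem_pGroup hiso P.2 hxP hu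
  have hxB : x ∈ B := hC x hxP (Subgroup.mem_centralizer_iff.2 fun u hu => (hxc u (hBP hu)).eq.symm)
  have hNx : ∀ n ∈ N, ∀ z ∈ Subgroup.zpowers x, n * z * n⁻¹ = z := by
    intro n hn z hz
    obtain ⟨i, rfl⟩ := Subgroup.mem_zpowers_iff.1 hz
    rw [← conj_zpow, LAE62.conj_eq_self_iff.2
      (LAE62.isolated_normalizer_le_centralizer hiso hBp hxB hn)]
  set Z := Subgroup.zpowers x with hZ
  have hZcard : Nat.card Z = p := by rw [hZ, Nat.card_zpowers, hxo]
  have hZp : IsPGroup p Z := IsPGroup.of_card (n := 1) (by rw [hZcard, pow_one])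
  have hZN : ∀ n ∈ N, ∀ z ∈ Z, n * z * n⁻¹ ∈ Z := fun n hn z hz => by rw [hNx n hn z hz]; exact hz
  -- the detecting subgroup
  obtain ⟨D₀, hD₀char, hD₀c, hD₀e, hD₀f⟩ := PGroup.exists_characteristic_exponent_prime hp2 hBp
  haveI := hD₀char
  set D := D₀.map B.subtype ⊔ Z with hD
  have hDB : D ≤ B := sup_le (Subgroup.map_subtype_le _) (Subgroup.zpowers_le.2 hxB)
  have hxD : x ∈ D := Subgroup.mem_sup_right (Subgroup.mem_zpowers x)
  have hZD : Z ≤ D := le_sup_right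
  have hZc : ∀ z ∈ Z, ∀ b ∈ B, b * z = z * b := fun z hz b hb =>
    mul_inv_eq_iff_eq_mul.1 (hNx b (Subgroup.le_normalizer hb) z hz)
  have hDmem : ∀ d ∈ D, ∃ a : B, a ∈ D₀ ∧ ∃ z ∈ Z, d = (a : G) * z := by
    intro d hd
    have hle : Z ≤ Subgroup.normalizer ((D₀.map B.subtype : Subgroup G) : Set G) :=
      (Subgroup.zpowers_le.2 hxB).trans (Subgroup.le_normalizer.trans
        (LAE60.normalizer_le_normalizer_map_subtype D₀))
    rw [hD, ← SetLike.mem_coe, Subgroup.coe_mul_of_right_le_normalizer_left _ _ hle] at hd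
    obtain ⟨_, ⟨a, ha, rfl⟩, z, hz, rfl⟩ := hd
    exact ⟨a, ha, z, hz, rfl⟩
  have hDexp : ∀ d ∈ D, d ^ p = 1 := by
    intro d hd
    obtain ⟨a, ha, z, hz, rfl⟩ := hDmem d hd
    have hcom : Commute (a : G) z := hZc z hz a a.2
    rw [hcom.mul_pow]
    have h1 : (a : G) ^ p = 1 := congrArg Subtype.val (hD₀e a ha)
    have h2 : z ^ p = 1 := by
      obtain ⟨i, rfl⟩ := Subgroup.mem_zpowers_iff.1 hz
      rw [← zpow_natCast, ← zpow_mul, mul_comm, zpow_mul, zpow_natCast, ← hxo, pow_orderOf_eq_one,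
        one_zpow]
    rw [h1, h2, one_mul]
  have hDcen : ∀ a ∈ D, ∀ b ∈ D, ∀ c ∈ D, Commute (a * b * a⁻¹ * b⁻¹) c := by
    intro a ha b hb c hc
    obtain ⟨a', ha', z1, hz1, rfl⟩ := hDmem a ha
    obtain ⟨b', hb', z2, hz2, rfl⟩ := hDmem b hb
    obtain ⟨c', hc', z3, hz3, rfl⟩ := hDmem c hc
    have e : (a' : G) * z1 * (b' * z2) * ((a' : G) * z1)⁻¹ * ((b' : G) * z2)⁻¹ =
        ((⁅a', b'⁆ : B) : G) := by
      have h1 := hZc z1 hz1 b' b'.2
      have h2 := hZc z2 hz2 a' a'.2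
      have h12 : z1 * z2 = z2 * z1 := (hZc z1 hz1 z2 ((Subgroup.zpowers_le.2 hxB) hz2)).symm
      simp only [commutatorElement_def, Subgroup.coe_mul, Subgroup.coe_inv]
      calc (a' : G) * z1 * (b' * z2) * ((a' : G) * z1)⁻¹ * ((b' : G) * z2)⁻¹
          = (a' : G) * ((z1 * b') * z2 * z1⁻¹) * (a' : G)⁻¹ * z2⁻¹ * (b' : G)⁻¹ := by group
        _ = (a' : G) * (b' * (z1 * z2) * z1⁻¹) * (a' : G)⁻¹ * z2⁻¹ * (b' : G)⁻¹ := by rw [← h1]; group
        _ = (a' : G) * b' * ((z2 * (a' : G)⁻¹) * z2⁻¹) * (b' : G)⁻¹ := by rw [h12]; group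
        _ = _ := by
          rw [show z2 * (a' : G)⁻¹ = (a' : G)⁻¹ * z2 from
            ((show Commute (a' : G) z2 from h2).inv_left).eq.symm]
          group
    rw [e]
    refine Commute.mul_right ?_ (hZc z3 hz3 _ (SetLike.coe_mem _))
    have hm := hD₀c (Subgroup.commutator_mem_commutator
      (Subgroup.mem_top (⟨a', ha'⟩ : D₀)) (Subgroup.mem_top (⟨b', hb'⟩ : D₀)))
    have := congrArg (fun w : D₀ => ((w : B) : G)) (Subgroup.mem_center_iff.1 hm ⟨c', hc'⟩)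
    simp only [commutatorElement_def, Subgroup.coe_mul, Subgroup.coe_inv] at this ⊢
    exact this.symm
  have hDN : ∀ n ∈ N, ∀ d ∈ D, n * d * n⁻¹ ∈ D := by
    intro n hn d hd
    obtain ⟨a, ha, z, hz, rfl⟩ := hDmem d hd
    have h1 : n * a * n⁻¹ ∈ D₀.map B.subtype :=
      (Subgroup.mem_normalizer_iff.1 (LAE60.normalizer_le_normalizer_map_subtype D₀ hn) _).1
        ⟨a, ha, rfl⟩
    have e : n * ((a : G) * z) * n⁻¹ = (n * a * n⁻¹) * (n * z * n⁻¹) := by group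
    rw [e]
    exact mul_mem (Subgroup.mem_sup_left h1) (Subgroup.mem_sup_right (hZN n hn z hz))
  have hDfaith : ∀ n ∈ N, (orderOf n).Coprime p → (∀ d ∈ D, n * d * n⁻¹ = d) →
      n ∈ Subgroup.centralizer (B : Set G) := by
    intro n hn hcop hfix
    have h1 : B.normalizerMonoidHom ⟨n, hn⟩ = 1 := by
      refine hD₀f _ ?_ ?_
      · refine Nat.Coprime.coprime_dvd_left ((orderOf_map_dvd _ _).trans ?_) hcop
        rw [← Subgroup.orderOf_coe]
      · intro a ha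
        exact Subtype.ext (hfix _ (Subgroup.mem_sup_left ⟨a, ha, rfl⟩))
    have h2 : (⟨n, hn⟩ : Subgroup.normalizer (B : Set G)) ∈ B.normalizerMonoidHom.ker := h1
    rwa [Subgroup.normalizerMonoidHom_ker, Subgroup.mem_subgroupOf] at h2
  have hDT : D ≤ T := hDB.trans hBT
  have hDp : IsPGroup p D := hTp.to_le hDT
  have hDcard : Nat.card D ≤ p ^ 3 := by
    refine OddPre.Rank2.card_le_cube hDp (fun d => Subtype.ext (hDexp d d.2)) ?_
      (PGroup.pRankLE_subgroup D hrank)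
    rw [commutator_eq_closure, Subgroup.closure_le]
    rintro _ ⟨a, b, rfl⟩
    refine Subgroup.mem_center_iff.2 fun c => Subtype.ext ?_
    simp only [Subgroup.coe_mul, Subgroup.coe_inv, commutatorElement_def]
    exact (hDcen a a.2 b b.2 c c.2).eq.symm
  have hrk : ∀ A : Subgroup G, A ≤ D → (∀ a ∈ A, ∀ b ∈ A, Commute a b) → Nat.card A ≤ p ^ 2 :=
    fun A hA hab => hrank A ⟨⟨fun a b => Subtype.ext (hab a a.2 b b.2).eq⟩⟩
      fun a ha => hDexp a (hA ha)
  have hZT : ∀ t ∈ T, ∀ z ∈ Z, t * z * t⁻¹ ∈ Z := fun t ht => hZN t ht.2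
  have hDT' : ∀ t ∈ T, ∀ d ∈ D, t * d * t⁻¹ ∈ D := fun t ht => hDN t ht.2
  by_cases hab : ∀ a ∈ D, ∀ b ∈ D, Commute a b
  · -- abelian detecting subgroup
    have hDc2 : Nat.card D ≤ p * Nat.card Z := by
      rw [hZcard, ← pow_two]; exact hrk D le_rfl hab
    refine le_goodSub_of_closed le_rfl hT (U := actSub N D Z hDN hZN)
      (fun t ht => ⟨ht.2, act_of_prime_step hTp hZD hDT hDT' hZT hDc2 t ht⟩)
      (fun u hu => hu.1) (fun g hg u hu => conj_mem_actSub hg hu) ?_ hTg hNT'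
    rintro u ⟨hu, hu'⟩ hcop
    exact hDfaith u hu hcop (centralizes_step hcop (hNx u hu) hZp hu')
  -- `D` is extraspecial of order `p ^ 3`
  simp only [not_forall] at hab
  obtain ⟨d1, hd1, d2, hd2, hd12⟩ := hab
  have hDcomm : ∀ a ∈ D, ∀ b ∈ D, a * b * a⁻¹ * b⁻¹ ∈ Z := by
    intro a ha b hb
    by_contra hcZ
    set c := a * b * a⁻¹ * b⁻¹ with hc
    have hcD : c ∈ D := mul_mem (mul_mem (mul_mem ha hb) (inv_mem ha)) (inv_mem hb)
    set E := Z ⊔ Subgroup.zpowers c with hE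
    have hED : E ≤ D := sup_le hZD (Subgroup.zpowers_le.2 hcD)
    have hEc : ∀ e ∈ E, ∀ d ∈ D, Commute e d := by
      have : E ≤ Subgroup.centralizer (D : Set G) := sup_le
        (fun z hz => Subgroup.mem_centralizer_iff.2 fun d hd => hZc z hz d (hDB hd))
        (Subgroup.zpowers_le.2 (Subgroup.mem_centralizer_iff.2 fun d hd =>
          (hDcen a ha b hb d hd).eq.symm))
      exact fun e he d hd => (Subgroup.mem_centralizer_iff.1 (this he) d hd).symm
    have hEcard : p ^ 2 ≤ Nat.card E := by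
      obtain ⟨j, hj⟩ := IsPGroup.iff_card.1 (hDp.to_le hED)
      have hlt : Nat.card Z < Nat.card E := Set.ncard_lt_ncard (s := (Z : Set G)) (t := (E : Set G))
        (SetLike.coe_ssubset_coe.2 (lt_of_le_of_ne le_sup_left fun h =>
          hcZ (h.ge (Subgroup.mem_sup_right (Subgroup.mem_zpowers c))))) (Set.toFinite _)
      rw [hZcard, hj] at hlt
      rw [hj]
      refine Nat.pow_le_pow_right hp.out.pos ?_
      by_contra h
      have : p ^ j ≤ p ^ 1 := Nat.pow_le_pow_right hp.out.pos (by omega)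
      rw [pow_one] at this
      omega
    have hall : ∀ d ∈ D, d ∈ E := by
      intro d hd
      have hA : Nat.card ↥(E ⊔ Subgroup.zpowers d) ≤ Nat.card E := by
        refine le_trans (hrk _ (sup_le hED (Subgroup.zpowers_le.2 hd)) ?_) hEcard
        intro u hu v hv
        have hmc := Subgroup.isMulCommutative_closure (k := (E : Set G) ∪ {d}) ?_
        · have hle : E ⊔ Subgroup.zpowers d ≤ Subgroup.closure ((E : Set G) ∪ {d}) :=
            sup_le (fun w hw => Subgroup.subset_closure (Or.inl hw))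
              (Subgroup.zpowers_le.2 (Subgroup.subset_closure (Or.inr rfl)))
          exact congrArg Subtype.val (hmc.is_comm.comm ⟨u, hle hu⟩ ⟨v, hle hv⟩)
        · rintro w (hw | hw) w' (hw' | hw')
          · exact (hEc w hw w' (hED hw')).eq
          · rw [Set.mem_singleton_iff.1 hw']; exact (hEc w hw d hd).eq
          · rw [Set.mem_singleton_iff.1 hw]; exact (hEc w' hw' d hd).eq.symm
          · rw [Set.mem_singleton_iff.1 hw, Set.mem_singleton_iff.1 hw']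
      exact (Subgroup.eq_of_le_of_card_ge le_sup_left hA).ge
        (Subgroup.mem_sup_right (Subgroup.mem_zpowers d))
    exact hd12 (hEc d1 (hall d1 hd1) d2 hd2)
  have hDZc : ∀ d ∈ D, (∀ d' ∈ D, Commute d d') → d ∈ Z := by
    intro d hd hdc
    by_contra hdZ
    refine hd12 ?_
    set E := Z ⊔ Subgroup.zpowers d with hE
    have hED : E ≤ D := sup_le hZD (Subgroup.zpowers_le.2 hd)
    have hEc : ∀ e ∈ E, ∀ d' ∈ D, Commute e d' := by
      have : E ≤ Subgroup.centralizer (D : Set G) := sup_le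
        (fun z hz => Subgroup.mem_centralizer_iff.2 fun d' hd' => hZc z hz d' (hDB hd'))
        (Subgroup.zpowers_le.2 (Subgroup.mem_centralizer_iff.2 fun d' hd' => (hdc d' hd').eq.symm))
      exact fun e he d' hd' => (Subgroup.mem_centralizer_iff.1 (this he) d' hd').symm
    have hEcard : p ^ 2 ≤ Nat.card E := by
      obtain ⟨j, hj⟩ := IsPGroup.iff_card.1 (hDp.to_le hED)
      have hlt : Nat.card Z < Nat.card E := Set.ncard_lt_ncard (s := (Z : Set G)) (t := (E : Set G))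
        (SetLike.coe_ssubset_coe.2 (lt_of_le_of_ne le_sup_left fun h =>
          hdZ (h.ge (Subgroup.mem_sup_right (Subgroup.mem_zpowers d))))) (Set.toFinite _)
      rw [hZcard, hj] at hlt
      rw [hj]
      refine Nat.pow_le_pow_right hp.out.pos ?_
      by_contra h
      have : p ^ j ≤ p ^ 1 := Nat.pow_le_pow_right hp.out.pos (by omega)
      rw [pow_one] at this
      omega
    have hA : Nat.card ↥(E ⊔ Subgroup.zpowers d1) ≤ Nat.card E := by
      refine le_trans (hrk _ (sup_le hED (Subgroup.zpowers_le.2 hd1)) ?_) hEcard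
      intro u hu v hv
      have hmc := Subgroup.isMulCommutative_closure (k := (E : Set G) ∪ {d1}) ?_
      · have hle : E ⊔ Subgroup.zpowers d1 ≤ Subgroup.closure ((E : Set G) ∪ {d1}) :=
          sup_le (fun w hw => Subgroup.subset_closure (Or.inl hw))
            (Subgroup.zpowers_le.2 (Subgroup.subset_closure (Or.inr rfl)))
        exact congrArg Subtype.val (hmc.is_comm.comm ⟨u, hle hu⟩ ⟨v, hle hv⟩)
      · rintro w (hw | hw) w' (hw' | hw')
        · exact (hEc w hw w' (hED hw')).eq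
        · rw [Set.mem_singleton_iff.1 hw']; exact (hEc w hw d1 hd1).eq
        · rw [Set.mem_singleton_iff.1 hw]; exact (hEc w' hw' d1 hd1).eq.symm
        · rw [Set.mem_singleton_iff.1 hw, Set.mem_singleton_iff.1 hw']
    exact hEc d1 ((Subgroup.eq_of_le_of_card_ge le_sup_left hA).ge
      (Subgroup.mem_sup_right (Subgroup.mem_zpowers d1))) d2 hd2
  have hZne : Z < D := by
    refine lt_of_le_of_ne hZD fun h => hd12 ?_
    exact (hZc d2 (h.ge hd2) d1 (hDB hd1))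
  obtain ⟨e, heD, heZ, he⟩ := exists_fixed_mod hTp hZne hDT hDT' hZT
  set L := Z ⊔ Subgroup.zpowers e with hL
  have hLD : L ≤ D := sup_le hZD (Subgroup.zpowers_le.2 heD)
  have hZL : Z ≤ L := le_sup_left
  have heL : e ∈ L := Subgroup.mem_sup_right (Subgroup.mem_zpowers e)
  have hgen : ∀ (d : G), d ∈ D → d ∉ Z → p ^ 2 ≤ Nat.card ↥(Z ⊔ Subgroup.zpowers d) := by
    intro d hd hdZ
    obtain ⟨j, hj⟩ := IsPGroup.iff_card.1 (hDp.to_le (sup_le hZD (Subgroup.zpowers_le.2 hd)))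
    have hlt : Nat.card Z < Nat.card ↥(Z ⊔ Subgroup.zpowers d) :=
      Set.ncard_lt_ncard (s := (Z : Set G)) (t := ((Z ⊔ Subgroup.zpowers d : Subgroup G) : Set G))
        (SetLike.coe_ssubset_coe.2 (lt_of_le_of_ne le_sup_left fun h =>
          hdZ (h.ge (Subgroup.mem_sup_right (Subgroup.mem_zpowers d))))) (Set.toFinite _)
    rw [hZcard, hj] at hlt
    rw [hj]
    refine Nat.pow_le_pow_right hp.out.pos ?_
    by_contra h
    have : p ^ j ≤ p ^ 1 := Nat.pow_le_pow_right hp.out.pos (by omega)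
    rw [pow_one] at this
    omega
  have hLab : ∀ u ∈ L, ∀ v ∈ L, Commute u v := by
    have hmc := Subgroup.isMulCommutative_closure (k := (Z : Set G) ∪ {e}) ?_
    · have hle : L ≤ Subgroup.closure ((Z : Set G) ∪ {e}) :=
        sup_le (fun w hw => Subgroup.subset_closure (Or.inl hw))
          (Subgroup.zpowers_le.2 (Subgroup.subset_closure (Or.inr rfl)))
      exact fun u hu v hv => congrArg Subtype.val (hmc.is_comm.comm ⟨u, hle hu⟩ ⟨v, hle hv⟩)
    · rintro w (hw | hw) w' (hw' | hw')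
      · exact hZc w' hw' w ((hDB.trans' hZD) hw)
      · rw [Set.mem_singleton_iff.1 hw']; exact (hZc w hw e (hDB heD)).symm
      · rw [Set.mem_singleton_iff.1 hw]; exact hZc w' hw' e (hDB heD)
      · rw [Set.mem_singleton_iff.1 hw, Set.mem_singleton_iff.1 hw']
  have hLcard : Nat.card L = p ^ 2 := le_antisymm (hrk L hLD hLab) (hgen e heD heZ)
  have hTL : ∀ t ∈ T, ∀ l ∈ L, t * l * t⁻¹ ∈ L := by
    intro t ht
    have : L ≤ L.comap (MulAut.conj t).toMonoidHom := sup_le (fun z hz => hZL (hZT t ht z hz))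
      (Subgroup.zpowers_le.2 (show t * e * t⁻¹ ∈ L by
        simpa using mul_mem (hZL (he t ht)) heL))
    exact fun l hl => this hl
  have hTLZ : ∀ t ∈ T, ∀ l ∈ L, t * l * t⁻¹ * l⁻¹ ∈ Z :=
    act_of_prime_step hTp hZL (hLD.trans hDT) hTL hZT (by rw [hLcard, hZcard, pow_two])
  have hTDL : ∀ t ∈ T, ∀ d ∈ D, t * d * t⁻¹ * d⁻¹ ∈ L :=
    act_of_prime_step hTp hLD hDT hDT' hTL (by
      rw [hLcard]; exact hDcard.trans_eq (pow_succ' p 2))
  by_cases hst : ∀ n ∈ N, ∀ l ∈ L, n * l * n⁻¹ ∈ L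
  · -- the line is invariant
    refine le_goodSub_of_closed le_rfl hT (U := actSub N L Z hst hZN ⊓ actSub N D L hDN hst)
      (fun t ht => ⟨⟨ht.2, hTLZ t ht⟩, ⟨ht.2, hTDL t ht⟩⟩) (fun u hu => hu.1.1)
      (fun g hg u hu => ⟨conj_mem_actSub hg hu.1, conj_mem_actSub hg hu.2⟩) ?_ hTg hNT'
    rintro u ⟨⟨hu, hu1⟩, ⟨-, hu2⟩⟩ hcop
    exact hDfaith u hu hcop (centralizes_step hcop (centralizes_step hcop (hNx u hu) hZp hu1)
      (hDp.to_le hLD) hu2)
  simp only [not_forall] at hst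
  obtain ⟨g, hg, l₀, hl₀, hgl₀⟩ := hst
  set e2 := g * e * g⁻¹ with he2
  have he2D : e2 ∈ D := hDN g hg e heD
  have hgL : ∀ l ∈ L, g * l * g⁻¹ ∈ Z ⊔ Subgroup.zpowers e2 := by
    have : L ≤ (Z ⊔ Subgroup.zpowers e2).comap (MulAut.conj g).toMonoidHom := sup_le
      (fun z hz => Subgroup.mem_sup_left (hZN g hg z hz))
      (Subgroup.zpowers_le.2 (Subgroup.mem_sup_right (Subgroup.mem_zpowers e2)))
    exact fun l hl => this hl
  have he2L : e2 ∉ L := fun h => hgl₀ (sup_le hZL (Subgroup.zpowers_le.2 h) (hgL l₀ hl₀))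
  have hDgen : D ≤ L ⊔ Subgroup.zpowers e2 := by
    have hle : L ⊔ Subgroup.zpowers e2 ≤ D := sup_le hLD (Subgroup.zpowers_le.2 he2D)
    refine (Subgroup.eq_of_le_of_card_ge hle ?_).ge
    obtain ⟨j, hj⟩ := IsPGroup.iff_card.1 (hDp.to_le hle)
    have hlt : Nat.card L < Nat.card ↥(L ⊔ Subgroup.zpowers e2) :=
      Set.ncard_lt_ncard (s := (L : Set G)) (t := ((L ⊔ Subgroup.zpowers e2 : Subgroup G) : Set G))
        (SetLike.coe_ssubset_coe.2 (lt_of_le_of_ne le_sup_left fun h =>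
          he2L (h.ge (Subgroup.mem_sup_right (Subgroup.mem_zpowers e2))))) (Set.toFinite _)
    rw [hLcard, hj] at hlt
    rw [hj]
    exact hDcard.trans (Nat.pow_le_pow_right hp.out.pos ((Nat.pow_lt_pow_iff_right hp.out.one_lt).1 hlt))
  by_cases htriv : ∀ t ∈ T, t * e2 * t⁻¹ * e2⁻¹ ∈ Z
  · refine le_goodSub_of_closed le_rfl hT (U := actSub N D Z hDN hZN)
      (fun t ht => ⟨ht.2, ?_⟩) (fun u hu => hu.1) (fun g hg u hu => conj_mem_actSub hg hu) ?_ hTg hNT'
    · let S : Subgroup G :=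
        { carrier := {b | b ∈ D ∧ t * b * t⁻¹ * b⁻¹ ∈ Z}
          one_mem' := ⟨D.one_mem, by simp⟩
          mul_mem' := by
            rintro b c ⟨hb, hb'⟩ ⟨hc, hc'⟩
            refine ⟨D.mul_mem hb hc, ?_⟩
            have e : t * (b * c) * t⁻¹ * (b * c)⁻¹ =
                (t * b * t⁻¹ * b⁻¹) * (b * (t * c * t⁻¹ * c⁻¹) * b⁻¹) := by group
            rw [e]
            exact Z.mul_mem hb' (hZT b (hDT hb) _ hc')
          inv_mem' := by
            rintro b ⟨hb, hb'⟩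
            refine ⟨D.inv_mem hb, ?_⟩
            have e : t * b⁻¹ * t⁻¹ * b⁻¹⁻¹ = b⁻¹ * (t * b * t⁻¹ * b⁻¹)⁻¹ * b⁻¹⁻¹ := by group
            rw [e]
            exact hZT b⁻¹ (hDT (D.inv_mem hb)) _ (Z.inv_mem hb') }
      have : D ≤ S := hDgen.trans (sup_le (fun l hl => ⟨hLD hl, hTLZ t ht l hl⟩)
        (Subgroup.zpowers_le.2 ⟨he2D, htriv t ht⟩))
      exact fun d hd => (this hd).2
    rintro u ⟨hu, hu'⟩ hcop
    exact hDfaith u hu hcop (centralizes_step hcop (hNx u hu) hZp hu')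
  simp only [not_forall] at htriv
  obtain ⟨t, ht, htZ⟩ := htriv
  set a := t * e2 * t⁻¹ * e2⁻¹ with ha
  have haL : a ∈ L := hTDL t ht e2 he2D
  have haD : a ∈ D := hLD haL
  have haM : a ∈ M := hPM t ht.1 e2 (hBP (hDB he2D))
  have hLa : L = Z ⊔ Subgroup.zpowers a := (Subgroup.eq_of_le_of_card_ge
    (sup_le hZL (Subgroup.zpowers_le.2 haL)) (hLcard.le.trans (hgen a haD htZ))).symm
  -- commutator of `D`
  set c0 := e2 * a * e2⁻¹ * a⁻¹ with hc0
  have hc0Z : c0 ∈ Z := hDcomm e2 he2D a haD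
  have hc0ne : c0 ≠ 1 := by
    intro h
    refine htZ (hDZc a haD ?_)
    have : L ⊔ Subgroup.zpowers e2 ≤ Subgroup.centralizer ({a} : Set G) := sup_le
      (fun l hl => Subgroup.mem_centralizer_singleton_iff.2 (hLab l hl a haL).eq)
      (Subgroup.zpowers_le.2 (Subgroup.mem_centralizer_singleton_iff.2
        (mul_inv_eq_iff_eq_mul.1 (mul_inv_eq_one.1 h))))
    exact fun d hd => (Subgroup.mem_centralizer_singleton_iff.1 (this (hDgen hd))).symm
  have hc0gen : ∀ z ∈ Z, ∃ i : ℕ, z = c0 ^ i := by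
    intro z hz
    have hc : Subgroup.zpowers c0 = Z := by
      refine Subgroup.eq_of_le_of_card_ge (Subgroup.zpowers_le.2 hc0Z) ?_
      rw [hZcard, Nat.card_zpowers]
      have h1 : orderOf c0 ∣ p := orderOf_dvd_of_pow_eq_one (hDexp c0 (hZD hc0Z))
      rcases (Nat.dvd_prime hp.out).1 h1 with h2 | h2
      · exact absurd (orderOf_eq_one_iff.1 h2) hc0ne
      · exact h2.ge
    rw [← hc, ← mem_powers_iff_mem_zpowers] at hz
    obtain ⟨i, hi⟩ := hz
    exact ⟨i, hi.symm⟩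
  have hc0M : c0 ∈ M := hPM e2 (hBP (hDB he2D)) a (hBP (hDB haD))
  have hZM : Z ≤ M := fun z hz => by
    obtain ⟨i, rfl⟩ := hc0gen z hz
    exact pow_mem hc0M i
  have hLM : L ≤ M := hLa ▸ sup_le hZM (Subgroup.zpowers_le.2 haM)
  -- the conjugate of `t` fixes `e2` and moves `a` along `e2`
  set s0 := g * t * g⁻¹ with hs0
  have hs0N : s0 ∈ N := mul_mem (mul_mem hg ht.2) (inv_mem hg)
  have hs0L' : ∀ d ∈ D, s0 * d * s0⁻¹ * d⁻¹ ∈ Z ⊔ Subgroup.zpowers e2 := by
    intro d hd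
    have h1 := hgL _ (hTDL t ht _ (hDN g⁻¹ (inv_mem hg) d hd))
    convert h1 using 1
    rw [hs0]; group
  have hs0e2 : s0 * e2 * s0⁻¹ * e2⁻¹ ∈ Z := by
    have h1 := hZN g hg _ (he t ht)
    convert h1 using 1
    rw [hs0, he2]; group
  -- work in the centralizer of `x` modulo `x`
  set Cx := Subgroup.centralizer ({x} : Set G) with hCx
  have hNC : N ≤ Cx := LAE62.isolated_normalizer_le_centralizer hiso hBp hxB
  have hZCx : Z ≤ Cx := Subgroup.zpowers_le.2 (Subgroup.mem_centralizer_singleton_iff.2 rfl)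
  haveI hZn : (Z.subgroupOf Cx).Normal := ⟨fun z hz c => by
    obtain ⟨i, hi⟩ := Subgroup.mem_zpowers_iff.1 (Subgroup.mem_subgroupOf.1 hz)
    have hcx : Commute (c : G) x := Subgroup.mem_centralizer_singleton_iff.1 c.2
    rw [Subgroup.mem_subgroupOf]
    simp only [Subgroup.coe_mul, Subgroup.coe_inv]
    rw [← hi, (hcx.zpow_right i).eq, mul_inv_cancel_right]
    exact zpow_mem (Subgroup.mem_zpowers x) i⟩
  have hDC : D ≤ Cx := (hDB.trans Subgroup.le_normalizer).trans hNC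
  set π := QuotientGroup.mk' (Z.subgroupOf Cx) with hπ
  have hπeq : ∀ u v : Cx, π u = π v ↔ (u : G) * (v : G)⁻¹ ∈ Z := by
    intro u v
    constructor
    · intro h
      have h1 : π (u * v⁻¹) = 1 := by rw [map_mul, map_inv, h, mul_inv_cancel]
      exact (QuotientGroup.eq_one_iff (N := Z.subgroupOf Cx) (u * v⁻¹)).1 h1
    · intro h
      have h1 : π (u * v⁻¹) = 1 :=
        (QuotientGroup.eq_one_iff (N := Z.subgroupOf Cx) (u * v⁻¹)).2 h
      rw [map_mul, map_inv] at h1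
      exact mul_inv_eq_one.1 h1
  let A : Cx := ⟨a, hDC haD⟩
  let B2 : Cx := ⟨e2, hDC he2D⟩
  let S0 : Cx := ⟨s0, hNC hs0N⟩
  let T0 : Cx := ⟨t, hNC ht.2⟩
  have hAB : π A * π B2 = π B2 * π A := by
    rw [← map_mul, ← map_mul, hπeq]
    have h1 := hDcomm a haD e2 he2D
    show a * e2 * (e2 * a)⁻¹ ∈ Z
    convert h1 using 1
    group
  have hTa : π T0 * π A * (π T0)⁻¹ = π A := by
    rw [← map_inv, ← map_mul, ← map_mul, hπeq]
    exact hTLZ t ht a haL
  have hTb : π T0 * π B2 * (π T0)⁻¹ = π A * π B2 := by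
    rw [← map_inv, ← map_mul, ← map_mul, ← map_mul]
    congr 1
    apply Subtype.ext
    show t * e2 * t⁻¹ = a * e2
    rw [ha]; group
  have hSb : π S0 * π B2 * (π S0)⁻¹ = π B2 := by
    rw [← map_inv, ← map_mul, ← map_mul, hπeq]
    exact hs0e2
  obtain ⟨j, hj⟩ : ∃ j : ℤ, π S0 * π A * (π S0)⁻¹ = π A * π B2 ^ j := by
    have h1 := hs0L' a haD
    have hle : Z ≤ Subgroup.normalizer ((Subgroup.zpowers e2 : Subgroup G) : Set G) := by
      intro z hz
      refine Subgroup.centralizer_le_normalizer _ (Subgroup.mem_centralizer_iff.2 ?_)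
      rintro w ⟨i, rfl⟩
      exact hZc z hz _ (zpow_mem (hDB he2D) i)
    rw [← SetLike.mem_coe, Subgroup.coe_mul_of_left_le_normalizer_right _ _ hle] at h1
    obtain ⟨z, hz, _, ⟨j, rfl⟩, hzj⟩ := h1
    simp only at hzj
    refine ⟨j, ?_⟩
    have hc : (π B2 ^ j) * π A = π A * π B2 ^ j := ((show Commute (π B2) (π A) from hAB.symm).zpow_left j).eq
    rw [← hc, ← map_inv, ← map_mul, ← map_mul, ← map_zpow, ← map_mul, hπeq]
    show s0 * a * s0⁻¹ * (e2 ^ j * a)⁻¹ ∈ Z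
    have : s0 * a * s0⁻¹ * (e2 ^ j * a)⁻¹ = z := by
      calc s0 * a * s0⁻¹ * (e2 ^ j * a)⁻¹ = (s0 * a * s0⁻¹ * a⁻¹) * (e2 ^ j)⁻¹ := by group
        _ = z := by rw [← hzj]; group
    rw [this]; exact hz
  have hBp' : π B2 ^ p = 1 := by
    rw [← map_pow, show B2 ^ p = 1 from Subtype.ext (hDexp e2 he2D), map_one]
  have hjp : ¬ (p : ℤ) ∣ j := by
    intro h
    obtain ⟨i, rfl⟩ := h
    rw [zpow_mul, zpow_natCast, hBp', one_zpow, mul_one] at hj
    -- then `t` is trivial on `D` modulo `x`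
    refine htZ ?_
    have hfix : ∀ d : Cx, (d : G) ∈ D → π S0 * π d * (π S0)⁻¹ = π d := by
      let S : Subgroup Cx :=
        ((MulAut.conj (π S0)).toMonoidHom.comp π).eqLocus π
      intro d hd
      have : (D.subgroupOf Cx) ≤ S := by
        have hD' : D.subgroupOf Cx ≤ Z.subgroupOf Cx ⊔ Subgroup.zpowers A ⊔ Subgroup.zpowers B2 := by
          intro w hw
          have h2 : (w : G) ∈ (Z.subgroupOf Cx ⊔ Subgroup.zpowers A ⊔ Subgroup.zpowers B2).map Cx.subtype := by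
            rw [Subgroup.map_sup, Subgroup.map_sup, MonoidHom.map_zpowers, MonoidHom.map_zpowers,
              Subgroup.map_subgroupOf_eq_of_le hZCx]
            show (w : G) ∈ Z ⊔ Subgroup.zpowers a ⊔ Subgroup.zpowers e2
            rw [← hLa]
            exact hDgen hw
          obtain ⟨w', hw', hww⟩ := h2
          exact Subtype.ext hww ▸ hw'
        refine hD'.trans (sup_le (sup_le (fun z hz => ?_) (Subgroup.zpowers_le.2 hj))
          (Subgroup.zpowers_le.2 hSb))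
        show π S0 * π z * (π S0)⁻¹ = π z
        rw [(QuotientGroup.eq_one_iff (N := Z.subgroupOf Cx) z).2 hz |> fun h => (h : π z = 1),
          mul_one, mul_inv_cancel]
      exact this hd
    have h1 := hfix ⟨g * e2 * g⁻¹, hDC (hDN g hg e2 he2D)⟩ (hDN g hg e2 he2D)
    rw [← map_inv, ← map_mul, ← map_mul, hπeq] at h1
    have h2 : g⁻¹ * (s0 * (g * e2 * g⁻¹) * s0⁻¹ * (g * e2 * g⁻¹)⁻¹) * g⁻¹⁻¹ ∈ Z :=
      hZN g⁻¹ (inv_mem hg) _ h1
    convert h2 using 1
    rw [ha, hs0]; group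
  obtain ⟨b, hb⟩ : ∃ b : ℕ, (p : ℤ) ∣ j * b + 1 := by
    obtain ⟨u, v, huv⟩ := ((Nat.prime_iff_prime_int.1 hp.out).irreducible.coprime_iff_not_dvd.2 hjp).symm
    refine ⟨((-u) % p).toNat, ?_⟩
    rw [Int.toNat_of_nonneg (Int.emod_nonneg _ (by exact_mod_cast hp.out.ne_zero))]
    refine ⟨v - j * ((-u) / p), ?_⟩
    rw [Int.emod_def]
    linear_combination -huv
  have hSb' : ∀ n : ℕ, π S0 ^ n * π B2 * (π S0 ^ n)⁻¹ = π B2 := fun n => by
    have hc : Commute (π S0) (π B2) := mul_inv_eq_iff_eq_mul.1 hSb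
    rw [(hc.pow_left n).eq, mul_inv_cancel_right]
  have hSa' : ∀ n : ℕ, π S0 ^ n * π A * (π S0 ^ n)⁻¹ = π A * π B2 ^ (j * n) := by
    intro n
    induction n with
    | zero => simp
    | succ n ih =>
      have hbz : π S0 ^ n * π B2 ^ j * (π S0 ^ n)⁻¹ = π B2 ^ j := by rw [← conj_zpow, hSb']
      calc π S0 ^ (n + 1) * π A * (π S0 ^ (n + 1))⁻¹
          = π S0 ^ n * (π S0 * π A * (π S0)⁻¹) * (π S0 ^ n)⁻¹ := by rw [pow_succ]; group
        _ = (π S0 ^ n * π A * (π S0 ^ n)⁻¹) * (π S0 ^ n * π B2 ^ j * (π S0 ^ n)⁻¹) := by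
          rw [hj]; group
        _ = π A * π B2 ^ (j * ((n + 1 : ℕ) : ℤ)) := by
          rw [ih, hbz, mul_assoc, ← zpow_add]; push_cast; ring_nf
  have hSA : π S0 ^ b * π A * (π S0 ^ b)⁻¹ = π A * (π B2)⁻¹ := by
    rw [hSa', ← zpow_neg_one]
    congr 1
    obtain ⟨c, hc⟩ := hb
    rw [show j * (b : ℤ) = p * c + -1 by linarith, zpow_add, zpow_mul, zpow_natCast, hBp', one_zpow,
      one_mul]
  obtain ⟨hn0a, hn0b⟩ := conj_sq_eq_inv hAB hTa hTb hSA (hSb' b)
  set n0 := (t * s0 ^ b * t) * (t * s0 ^ b * t) with hn0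
  have hn0N : n0 ∈ N :=
    mul_mem (mul_mem (mul_mem ht.2 (pow_mem hs0N b)) ht.2)
      (mul_mem (mul_mem ht.2 (pow_mem hs0N b)) ht.2)
  rw [← map_pow, ← map_mul, ← map_mul, ← map_mul, ← map_inv, ← map_mul, ← map_mul, ← map_inv,
    hπeq] at hn0a hn0b
  have hn0a' : n0 * a * n0⁻¹ * a ∈ Z := by simpa [hn0, A, T0, S0] using hn0a
  have hn0b' : n0 * e2 * n0⁻¹ * e2 ∈ Z := by simpa [hn0, B2, T0, S0] using hn0b
  -- stabiliser of the line
  set N' := N ⊓ Subgroup.normalizer (L : Set G) with hN'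
  have hTN' : ∀ t ∈ T, t ∈ N' := fun t ht => Subgroup.mem_inf.2 ⟨ht.2,
    Subgroup.mem_normalizer_iff.2 fun l => ⟨hTL t ht l, fun h => by
      have := hTL t⁻¹ (inv_mem ht) _ h
      simpa [mul_assoc] using this⟩⟩
  have hn0L : n0 ∈ Subgroup.normalizer (L : Set G) := by
    have hle : L.map (MulAut.conj n0).toMonoidHom ≤ L := by
      refine Subgroup.map_le_iff_le_comap.2 (hLa.le.trans (sup_le (fun z hz => ?_) (Subgroup.zpowers_le.2 ?_)))
      · exact hZL (hZN n0 hn0N z hz)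
      · show n0 * a * n0⁻¹ ∈ L
        have h2 := mul_mem (hZL hn0a') (inv_mem haL)
        rwa [mul_inv_cancel_right] at h2
    exact Fusion.cj_eq_iff_mem_normalizer.1 (Subgroup.eq_of_le_of_card_ge hle (by
      rw [Subgroup.card_map_of_injective (MulAut.conj n0).injective]))
  have hL' : ∀ n ∈ N', ∀ l ∈ L, n * l * n⁻¹ ∈ L := fun n hn l hl =>
    (Subgroup.mem_normalizer_iff.1 (Subgroup.mem_inf.1 hn).2 l).1 hl
  have hD' : ∀ n ∈ N', ∀ d ∈ D, n * d * n⁻¹ ∈ D := fun n hn =>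
    hDN n (Subgroup.mem_inf.1 hn).1
  have hZ' : ∀ n ∈ N', ∀ z ∈ Z, n * z * n⁻¹ ∈ Z := fun n hn => hZN n (Subgroup.mem_inf.1 hn).1
  set U := actSub N' L Z hL' hZ' ⊓ actSub N' D L hD' hL' with hU
  have hTU : T ≤ U := fun t ht => ⟨⟨hTN' t ht, hTLZ t ht⟩, ⟨hTN' t ht, hTDL t ht⟩⟩
  obtain ⟨R, hR, hTR⟩ := exists_sylIn_ge hTU hTp
  have hRT : R = T := le_antisymm
    (hT.le_of_ge (fun r hr => (Subgroup.mem_inf.1 (hR.le hr).1.1).1) hR.isPGroup hTR) hTR
  rw [hRT] at hR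
  have hn0' : n0 ∈ N' := Subgroup.mem_inf.2 ⟨hn0N, hn0L⟩
  obtain ⟨k, hk, hkn⟩ := hR.frattini (a := n0)
    (fun u hu => ⟨conj_mem_actSub hn0' hu.1, conj_mem_actSub hn0' hu.2⟩)
  have hknN : k * n0 ∈ N := mul_mem (Subgroup.mem_inf.1 hk.1.1).1 hn0N
  have hgood := hNT _ hknN hkn e2 (hBT (hDB he2D))
  -- hence `e2 ∈ M`
  have he2M : e2 ∈ M := by
    have hkN : k ∈ N := (Subgroup.mem_inf.1 hk.1.1).1
    have hz : k * (n0 * e2 * n0⁻¹ * e2) * k⁻¹ ∈ Z := hZN k hkN _ hn0b'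
    have hl : k * e2⁻¹ * k⁻¹ * e2⁻¹⁻¹ ∈ L := hk.2.2 e2⁻¹ (inv_mem he2D)
    have hm : e2⁻¹ * (k * (n0 * e2 * n0⁻¹ * e2) * k⁻¹) * (k * e2⁻¹ * k⁻¹ * e2⁻¹⁻¹) * e2⁻¹ ∈ M := by
      convert hgood using 1
      group
    have hcz : e2⁻¹ * (k * (n0 * e2 * n0⁻¹ * e2) * k⁻¹) =
        (k * (n0 * e2 * n0⁻¹ * e2) * k⁻¹) * e2⁻¹ := hZc _ hz _ (inv_mem (hDB he2D))
    rw [hcz, mul_assoc, mul_assoc] at hm
    have h1 := (Subgroup.mul_mem_cancel_left M (hZM hz)).1 hm
    have hlb : e2⁻¹ * ((k * e2⁻¹ * k⁻¹ * e2⁻¹⁻¹) * e2⁻¹) =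
        (e2⁻¹ * (k * e2⁻¹ * k⁻¹ * e2⁻¹⁻¹) * e2⁻¹⁻¹ * (k * e2⁻¹ * k⁻¹ * e2⁻¹⁻¹)⁻¹) *
          (k * e2⁻¹ * k⁻¹ * e2⁻¹⁻¹) * (e2⁻¹ * e2⁻¹) := by group
    rw [hlb] at h1
    have h2 := mul_mem (hZM (hDcomm e2⁻¹ (inv_mem he2D) _ (hLD hl))) (hLM hl)
    have h3 := (Subgroup.mul_mem_cancel_left M h2).1 h1
    have h4 := pow_mem (inv_mem h3) ((p + 1) / 2)
    have hodd := hp.out.eq_two_or_odd.resolve_left hp2
    have e : (e2⁻¹ * e2⁻¹)⁻¹ ^ ((p + 1) / 2) = e2 := by
      rw [show (e2⁻¹ * e2⁻¹)⁻¹ = e2 ^ 2 by rw [mul_inv_rev, inv_inv, pow_two], ← pow_mul,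
        show 2 * ((p + 1) / 2) = p + 1 by omega, pow_succ, hDexp e2 he2D, one_mul]
    rwa [e] at h4
  have hDM : D ≤ M := hDgen.trans (sup_le hLM (Subgroup.zpowers_le.2 he2M))
  -- `B` is `D` times a cyclic group
  have hBD : ∀ b ∈ B, ∀ d ∈ D, b * d * b⁻¹ * d⁻¹ ∈ Z := by
    intro b hb d hd
    have hbN : b ∈ N := Subgroup.le_normalizer hb
    have hb' : g⁻¹ * b * g⁻¹⁻¹ ∈ B := (Subgroup.mem_normalizer_iff.1 (inv_mem hg) b).1 hb
    let S : Subgroup G :=
      { carrier := {w | w ∈ D ∧ b * w * b⁻¹ * w⁻¹ ∈ Z}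
        one_mem' := ⟨D.one_mem, by simp⟩
        mul_mem' := by
          rintro u c ⟨hu, hu'⟩ ⟨hc, hc'⟩
          refine ⟨D.mul_mem hu hc, ?_⟩
          have e : b * (u * c) * b⁻¹ * (u * c)⁻¹ =
              (b * u * b⁻¹ * u⁻¹) * (u * (b * c * b⁻¹ * c⁻¹) * u⁻¹) := by group
          rw [e]
          exact Z.mul_mem hu' (hZT u (hDT hu) _ hc')
        inv_mem' := by
          rintro u ⟨hu, hu'⟩
          refine ⟨D.inv_mem hu, ?_⟩
          have e : b * u⁻¹ * b⁻¹ * u⁻¹⁻¹ = u⁻¹ * (b * u * b⁻¹ * u⁻¹)⁻¹ * u⁻¹⁻¹ := by group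
          rw [e]
          exact hZT u⁻¹ (hDT (D.inv_mem hu)) _ (Z.inv_mem hu') }
    have : D ≤ S := hDgen.trans (sup_le (fun l hl => ⟨hLD hl, hTLZ b (hBT hb) l hl⟩)
      (Subgroup.zpowers_le.2 ⟨he2D, by
        have h1 := hZN g hg _ (hTLZ _ (hBT hb') e heL)
        convert h1 using 1
        rw [he2]; group⟩))
    exact (this hd).2
  set Y := B ⊓ Subgroup.centralizer (D : Set G) with hY
  have hYcyc : IsCyclic Y := by
    refine isCyclic_of_omega_le hp2 (hBp.to_le inf_le_left) hxo fun y hy hyp => ?_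
    obtain ⟨hyB, hyC⟩ := Subgroup.mem_inf.1 hy
    have hyd : ∀ d ∈ D, Commute y d := fun d hd => (Subgroup.mem_centralizer_iff.1 hyC d hd).symm
    by_contra hyZ
    have hA := hrank (L ⊔ Subgroup.zpowers y) ?_ ?_
    · have hyL : y ∈ L := (Subgroup.eq_of_le_of_card_ge le_sup_left (hA.trans hLcard.ge)).ge
        (Subgroup.mem_sup_right (Subgroup.mem_zpowers y))
      exact hyZ (hDZc y (hLD hyL) hyd)
    · have hle : L ⊔ Subgroup.zpowers y ≤ Subgroup.closure ((L : Set G) ∪ {y}) :=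
        sup_le (fun w hw => Subgroup.subset_closure (Or.inl hw))
          (Subgroup.zpowers_le.2 (Subgroup.subset_closure (Or.inr rfl)))
      have hmc := Subgroup.isMulCommutative_closure (k := (L : Set G) ∪ {y}) ?_
      · exact ⟨⟨fun u v => Subtype.ext (congrArg (fun w : Subgroup.closure ((L : Set G) ∪ {y}) => (w : G))
          (hmc.is_comm.comm ⟨u, hle u.2⟩ ⟨v, hle v.2⟩))⟩⟩
      · rintro w (hw | hw) w' (hw' | hw')
        · exact (hLab w hw w' hw').eq
        · rw [Set.mem_singleton_iff.1 hw']; exact (hyd w (hLD hw)).eq.symm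
        · rw [Set.mem_singleton_iff.1 hw]; exact (hyd w' (hLD hw')).eq
        · rw [Set.mem_singleton_iff.1 hw, Set.mem_singleton_iff.1 hw']
    · let S : Subgroup G :=
        { carrier := {w | w ∈ Subgroup.centralizer (({y} : Set G) : Set G) ∧ w ^ p = 1 ∧ w ∈ L ⊔ Subgroup.zpowers y}
          one_mem' := ⟨one_mem _, one_pow _, one_mem _⟩
          mul_mem' := by
            rintro u v ⟨hu1, hu2, hu3⟩ ⟨hv1, hv2, hv3⟩
            refine ⟨mul_mem hu1 hv1, ?_, mul_mem hu3 hv3⟩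
            have hle : L ⊔ Subgroup.zpowers y ≤ Subgroup.closure ((L : Set G) ∪ {y}) :=
              sup_le (fun w hw => Subgroup.subset_closure (Or.inl hw))
                (Subgroup.zpowers_le.2 (Subgroup.subset_closure (Or.inr rfl)))
            have hmc := Subgroup.isMulCommutative_closure (k := (L : Set G) ∪ {y}) (by
              rintro w (hw | hw) w' (hw' | hw')
              · exact (hLab w hw w' hw').eq
              · rw [Set.mem_singleton_iff.1 hw']; exact (hyd w (hLD hw)).eq.symm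
              · rw [Set.mem_singleton_iff.1 hw]; exact (hyd w' (hLD hw')).eq
              · rw [Set.mem_singleton_iff.1 hw, Set.mem_singleton_iff.1 hw'])
            rw [(show Commute u v from congrArg Subtype.val
              (hmc.is_comm.comm ⟨u, hle hu3⟩ ⟨v, hle hv3⟩)).mul_pow, hu2, hv2, one_mul]
          inv_mem' := fun {u} hu => ⟨inv_mem hu.1, by rw [inv_pow, hu.2.1, inv_one], inv_mem hu.2.2⟩ }
      have : L ⊔ Subgroup.zpowers y ≤ S := sup_le
        (fun l hl => ⟨Subgroup.mem_centralizer_singleton_iff.2 (hyd l (hLD hl)).eq.symm,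
          hDexp l (hLD hl), Subgroup.mem_sup_left hl⟩)
        (Subgroup.zpowers_le.2 ⟨Subgroup.mem_centralizer_singleton_iff.2 rfl, hyp,
          Subgroup.mem_sup_right (Subgroup.mem_zpowers y)⟩)
      exact fun w hw => (this hw).2.1
  -- decomposition
  have hdec : ∀ b ∈ B, ∃ d ∈ D, ∃ y ∈ Y, b = d * y := by
    intro b hb
    obtain ⟨i, hi⟩ := hc0gen _ (hBD b hb a haD)
    have hxz : ∀ n ∈ N, n * c0 * n⁻¹ = c0 := fun n hn => hNx n hn c0 hc0Z
    have hpow : ∀ i : ℕ, e2 ^ i * a * (e2 ^ i)⁻¹ * a⁻¹ = c0 ^ i := by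
      intro i
      induction i with
      | zero => simp
      | succ i ih =>
        have h1 : e2 * c0 ^ i * e2⁻¹ = c0 ^ i := by rw [← conj_pow, hxz e2 (hDT he2D).2]
        calc e2 ^ (i + 1) * a * (e2 ^ (i + 1))⁻¹ * a⁻¹
            = (e2 * (e2 ^ i * a * (e2 ^ i)⁻¹ * a⁻¹) * e2⁻¹) * (e2 * a * e2⁻¹ * a⁻¹) := by
              rw [pow_succ']; group
          _ = c0 ^ i * c0 := by rw [ih, h1]
          _ = c0 ^ (i + 1) := (pow_succ c0 i).symm
    set b1 := (e2 ^ i)⁻¹ * b with hb1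
    have hb1B : b1 ∈ B := mul_mem (inv_mem (pow_mem (hDB he2D) i)) hb
    have hb1a : Commute b1 a := by
      refine mul_inv_eq_iff_eq_mul.1 (?_ : b1 * a * b1⁻¹ = a)
      have hz : (e2 ^ i)⁻¹ * c0 ^ i * e2 ^ i = c0 ^ i := by
        have := hNx _ (inv_mem (pow_mem (hDT he2D).2 i)) _ (pow_mem hc0Z i)
        rwa [inv_inv] at this
      have hba : b * a * b⁻¹ = c0 ^ i * a := by rw [← hi]; group
      calc b1 * a * b1⁻¹ = (e2 ^ i)⁻¹ * (b * a * b⁻¹) * e2 ^ i := by rw [hb1]; group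
        _ = (e2 ^ i)⁻¹ * (c0 ^ i * a) * e2 ^ i := by rw [hba]
        _ = ((e2 ^ i)⁻¹ * c0 ^ i * e2 ^ i) * ((e2 ^ i)⁻¹ * (a * e2 ^ i * a⁻¹ * (e2 ^ i)⁻¹) * e2 ^ i) * a := by
          group
        _ = a := by
          have h2 : a * e2 ^ i * a⁻¹ * (e2 ^ i)⁻¹ = (c0 ^ i)⁻¹ := by rw [← hpow i]; group
          rw [h2]
          have h3 : (e2 ^ i)⁻¹ * (c0 ^ i)⁻¹ * e2 ^ i = ((e2 ^ i)⁻¹ * c0 ^ i * e2 ^ i)⁻¹ := by group
          rw [h3, hz, mul_inv_cancel, one_mul]
    obtain ⟨j, hj'⟩ := hc0gen _ (hBD b1 hb1B e2 he2D)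
    set y := a ^ j * b1 with hy
    have hyB : y ∈ B := mul_mem (pow_mem (hDB haD) j) hb1B
    have hya : Commute y a := ((Commute.refl a).pow_left j).mul_left hb1a
    have hye : Commute y e2 := by
      refine mul_inv_eq_iff_eq_mul.1 (?_ : y * e2 * y⁻¹ = e2)
      have hpow' : ∀ j : ℕ, a ^ j * e2 * (a ^ j)⁻¹ = (c0 ^ j)⁻¹ * e2 := by
        intro j
        induction j with
        | zero => simp
        | succ j ih =>
          have h1 : a * (c0 ^ j)⁻¹ * a⁻¹ = (c0 ^ j)⁻¹ :=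
            hNx a (hDT haD).2 _ (inv_mem (pow_mem hc0Z j))
          have h2 : a * e2 * a⁻¹ = c0⁻¹ * e2 := by rw [hc0]; group
          calc a ^ (j + 1) * e2 * (a ^ (j + 1))⁻¹ = a * (a ^ j * e2 * (a ^ j)⁻¹) * a⁻¹ := by
                rw [pow_succ']; group
            _ = (a * (c0 ^ j)⁻¹ * a⁻¹) * (a * e2 * a⁻¹) := by rw [ih]; group
            _ = (c0 ^ (j + 1))⁻¹ * e2 := by rw [h1, h2, pow_succ']; group
      have hbe : b1 * e2 * b1⁻¹ = c0 ^ j * e2 := by rw [← hj']; group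
      calc y * e2 * y⁻¹ = a ^ j * (b1 * e2 * b1⁻¹) * (a ^ j)⁻¹ := by rw [hy]; group
        _ = (a ^ j * c0 ^ j * (a ^ j)⁻¹) * (a ^ j * e2 * (a ^ j)⁻¹) := by rw [hbe]; group
        _ = e2 := by
          rw [hNx _ (pow_mem (hDT haD).2 j) _ (pow_mem hc0Z j), hpow', mul_inv_cancel_left]
    have hyY : y ∈ Y := by
      refine Subgroup.mem_inf.2 ⟨hyB, Subgroup.mem_centralizer_iff.2 fun d hd => ?_⟩
      have : L ⊔ Subgroup.zpowers e2 ≤ Subgroup.centralizer ({y} : Set G) := by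
        rw [hLa]
        refine sup_le (sup_le (fun z hz => ?_) (Subgroup.zpowers_le.2 ?_)) (Subgroup.zpowers_le.2 ?_)
        · exact Subgroup.mem_centralizer_singleton_iff.2 (hZc z hz y hyB).symm
        · exact Subgroup.mem_centralizer_singleton_iff.2 hya.eq.symm
        · exact Subgroup.mem_centralizer_singleton_iff.2 hye.eq.symm
      exact Subgroup.mem_centralizer_singleton_iff.1 (this (hDgen hd))
    refine ⟨e2 ^ i * (a ^ j)⁻¹, mul_mem (pow_mem he2D i) (inv_mem (pow_mem haD j)), y, hyY, ?_⟩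
    rw [hy, hb1]; group
  -- `B ⊓ M` is invariant
  have hBM : ∀ n ∈ N, ∀ m ∈ B ⊓ M, n * m * n⁻¹ ∈ B ⊓ M := by
    intro n hn m hm
    obtain ⟨hmB, hmM⟩ := Subgroup.mem_inf.1 hm
    refine Subgroup.mem_inf.2 ⟨(Subgroup.mem_normalizer_iff.1 hn m).1 hmB, ?_⟩
    obtain ⟨d, hd, y, hy, rfl⟩ := hdec m hmB
    have hyM : y ∈ M := (Subgroup.mul_mem_cancel_left M (hDM hd)).1 hmM
    have hny : n * y * n⁻¹ ∈ Y := by
      obtain ⟨hyB, hyC⟩ := Subgroup.mem_inf.1 hy
      refine Subgroup.mem_inf.2 ⟨(Subgroup.mem_normalizer_iff.1 hn y).1 hyB,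
        Subgroup.mem_centralizer_iff.2 fun d' hd' => ?_⟩
      have h1 := Subgroup.mem_centralizer_iff.1 hyC _ (hDN n⁻¹ (inv_mem hn) d' hd')
      calc d' * (n * y * n⁻¹) = n * ((n⁻¹ * d' * n⁻¹⁻¹) * y) * n⁻¹ := by group
        _ = n * (y * (n⁻¹ * d' * n⁻¹⁻¹)) * n⁻¹ := by rw [h1]
        _ = n * y * n⁻¹ * d' := by group
    haveI := hYcyc
    have hz : (⟨_, hny⟩ : Y) ∈ Subgroup.zpowers (⟨y, hy⟩ : Y) := mem_zpowers_of_orderOf_eq (by
      rw [← Subgroup.orderOf_coe, ← Subgroup.orderOf_coe]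
      exact (MulAut.conj n).orderOf_eq y)
    obtain ⟨i, hi⟩ := Subgroup.mem_zpowers_iff.1 hz
    have hi' : y ^ i = n * y * n⁻¹ := by simpa using congrArg Subtype.val hi
    have e : n * (d * y) * n⁻¹ = (n * d * n⁻¹) * (n * y * n⁻¹) := by group
    rw [e]
    exact mul_mem (hDM (hDN n hn d hd)) (hi' ▸ zpow_mem hyM i)
  have hBN : ∀ n ∈ N, ∀ u ∈ B, n * u * n⁻¹ ∈ B := fun n hn u hu =>
    (Subgroup.mem_normalizer_iff.1 hn u).1 hu
  -- elements acting trivially on `B / (B ⊓ M)`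
  set U' := actSub N B (B ⊓ M) hBN hBM with hU'
  have hTU' : T ≤ U' := fun t ht => ⟨ht.2, fun u hu =>
    Subgroup.mem_inf.2 ⟨mul_mem (hBN t ht.2 u hu) (inv_mem hu), hPM t ht.1 u (hBP hu)⟩⟩
  have hU'g : U' ≤ goodSub M B := fun u hu => ⟨hu.1, fun v hv => by
    have h1 := (Subgroup.mem_inf.1 (hBM v⁻¹ (Subgroup.le_normalizer (inv_mem hv)) _ (hu.2 v hv))).2
    convert h1 using 1
    group⟩
  intro n hn
  obtain ⟨R', hR', hTR'⟩ := exists_sylIn_ge hTU' hTp
  have hRT' : R' = T := le_antisymm (hT.le_of_ge (fun r hr => (hR'.le hr).1) hR'.isPGroup hTR') hTR'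
  rw [hRT'] at hR'
  obtain ⟨k', hk', hkn'⟩ := hR'.frattini (fun u hu => conj_mem_actSub hn hu)
  have := mul_mem (inv_mem (hU'g hk')) (hNT' _ (mul_mem hk'.1 hn) hkn')
  rwa [inv_mul_cancel_left] at this

end Cfsg.Agent.IsoRankTwo
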