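import Mathlib.GroupTheory.Transfer
import Mathlib.GroupTheory.Focal
import Cfsg.Agent.IsoRankTwo.Control

/-!
Control of transfer by the normaliser of a Sylow subgroup, and the consequence for fixed points.
-/

set_option autoImplicit false
set_option linter.style.haveILetI false
set_option linter.unusedSectionVars false

open scoped commutatorElement

namespace Cfsg.Agent.IsoRankTwo

open FusionAlperin (SylIn exists_sylIn_ge)

variable {G : Type*} [Group G] [Finite G] {p : ℕ} [hp : Fact p.Prime]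
variable (hp2 : p ≠ 2) (P : Sylow p G) {x : G} (hxP : x ∈ (P : Subgroup G)) (hxo : orderOf x = p)
  (hiso : Cfsg.IsIsolated x) (hrank : Cfsg.PRankLE p 2 G)

include hp2 hxP hxo hiso hrank

/-- Conjugation inside `P` preserves the cosets of `[P, N(P)]`. -/
theorem good_all (k : ℕ) : ∀ (B : Subgroup G) (g : G), B ≤ (P : Subgroup G) →
    (∀ u ∈ B, g * u * g⁻¹ ∈ (P : Subgroup G)) → Nat.card (P : Subgroup G) ≤ Nat.card B + k →
    Good ⁅(P : Subgroup G), Subgroup.normalizer ((P : Subgroup G) : Set G)⁆ B g := by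
  classical
  induction k using Nat.strong_induction_on with
  | _ k ih =>
  intro B g hBP hgB hk
  set M := ⁅(P : Subgroup G), Subgroup.normalizer ((P : Subgroup G) : Set G)⁆ with hM
  have hbase : ∀ n ∈ Subgroup.normalizer ((P : Subgroup G) : Set G), Good M (P : Subgroup G) n := by
    intro n hn u hu
    have h := Subgroup.commutator_mem_commutator (inv_mem hu : u⁻¹ ∈ (P : Subgroup G)) hn
    rw [← hM, commutatorElement_def] at h
    convert h using 1
    group
  have hPM : ∀ a ∈ (P : Subgroup G), ∀ b ∈ (P : Subgroup G), a * b * a⁻¹ * b⁻¹ ∈ M :=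
    fun a ha b hb => by
      rw [← commutatorElement_def]
      exact Subgroup.commutator_mem_commutator ha (Subgroup.le_normalizer hb)
  rcases hBP.eq_or_lt with rfl | hlt
  · have hle : (P : Subgroup G).map (MulAut.conj g).toMonoidHom ≤ P := by
      rintro _ ⟨u, hu, rfl⟩; exact hgB u hu
    exact hbase g (Fusion.cj_eq_iff_mem_normalizer.1 (Subgroup.eq_of_le_of_card_ge hle (by
      rw [Subgroup.card_map_of_injective (MulAut.conj g).injective])))
  -- a fully normalised conjugate of `B`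
  have hBp : IsPGroup p B := P.2.to_le hBP
  obtain ⟨S, hBS, hS⟩ := Fusion.exists_sylow_inf_relIndex (N := Subgroup.normalizer (B : Set G)) hBp
    Subgroup.le_normalizer
  obtain ⟨h, hh⟩ := Fusion.exists_cj_sylow S P
  set B0 := B.map (MulAut.conj h).toMonoidHom with hB0
  have hB0P : B0 ≤ (P : Subgroup G) := by
    rw [← hh]; exact Fusion.cj_mono h hBS
  set N0 := Subgroup.normalizer (B0 : Set G) with hN0
  set T0 := (P : Subgroup G) ⊓ N0 with hT0
  have hN0eq : N0 = Fusion.cj h (Subgroup.normalizer (B : Set G)) := (Fusion.cj_normalizer h B).symm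
  have hT0eq : T0 = Fusion.cj h ((S : Subgroup G) ⊓ Subgroup.normalizer (B : Set G)) := by
    rw [Fusion.cj_inf, hh, ← hN0eq]
  have hsyl : SylIn p T0 N0 := by
    refine ⟨inf_le_right, (((P.2.to_le inf_le_left : IsPGroup p T0)).comap_subtype (K := N0)).toSylow ?_, rfl⟩
    show ¬ p ∣ T0.relIndex N0
    rw [hT0eq, hN0eq, Fusion.cj, Fusion.cj,
      Subgroup.relIndex_map_map_of_injective _ _ (MulAut.conj h).injective]
    exact hS
  have hB0card : Nat.card B0 = Nat.card B := Subgroup.card_map_of_injective (MulAut.conj h).injective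
  have hB0T : B0 < T0 :=
    Fusion.lt_normalizer_inf P.2 (lt_of_le_of_ne hB0P fun e => by
      have := Fusion.card_lt_card hlt
      rw [e] at hB0card
      omega)
  -- the induction hypothesis above `B`
  have hup : ∀ (A : Subgroup G), A ≤ (P : Subgroup G) → Nat.card B < Nat.card A → ∀ (n : G),
      (∀ u ∈ A, n * u * n⁻¹ ∈ (P : Subgroup G)) → Good M A n := by
    intro A hA hcard n hn
    have hle : Nat.card A ≤ Nat.card (P : Subgroup G) := Subgroup.card_le_of_le hA
    exact ih (Nat.card (P : Subgroup G) - Nat.card A) (by omega) A n hA hn (by omega)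
  have hT0N : ∀ n ∈ N0, (∀ t ∈ T0, n * t * n⁻¹ ∈ T0) → Good M T0 n := fun n _ hnt =>
    hup T0 inf_le_left (hB0card ▸ Fusion.card_lt_card hB0T) n fun t ht => (Subgroup.mem_inf.1 (hnt t ht)).1
  have hcore : N0 ≤ goodSub M B0 := by
    by_cases hC : ∀ c ∈ (P : Subgroup G), c ∈ Subgroup.centralizer (B0 : Set G) → c ∈ B0
    · exact good_of_centric hp2 P hxP hxo hiso hrank hB0P hPM hsyl hC hT0N
    · simp only [not_forall] at hC
      obtain ⟨c, hcP, hcC, hcB⟩ := hC
      intro n hn
      have hCN : Subgroup.centralizer (B0 : Set G) ≤ N0 := Subgroup.centralizer_le_normalizer _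
      have hconjC : ∀ m ∈ N0, ∀ w ∈ Subgroup.centralizer (B0 : Set G),
          m * w * m⁻¹ ∈ Subgroup.centralizer (B0 : Set G) := by
        intro m hm w hw
        refine Subgroup.mem_centralizer_iff.2 fun u hu => ?_
        have h1 := Subgroup.mem_centralizer_iff.1 hw _
          ((Subgroup.mem_normalizer_iff.1 (inv_mem hm) u).1 hu)
        calc u * (m * w * m⁻¹) = m * ((m⁻¹ * u * m⁻¹⁻¹) * w) * m⁻¹ := by group
          _ = m * (w * (m⁻¹ * u * m⁻¹⁻¹)) * m⁻¹ := by rw [h1]
          _ = m * w * m⁻¹ * u := by group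
      have hTC := hsyl.inf_normal hCN hconjC
      obtain ⟨w, hw, hwn⟩ := hTC.frattini (a := n) (hconjC n hn)
      set B1 := B0 ⊔ (T0 ⊓ Subgroup.centralizer (B0 : Set G)) with hB1
      have hB1P : B1 ≤ (P : Subgroup G) := sup_le hB0P (inf_le_left.trans inf_le_left)
      have hlt1 : B0 < B1 := lt_of_le_of_ne le_sup_left fun e => hcB (e.ge (Subgroup.mem_sup_right
        (Subgroup.mem_inf.2 ⟨Subgroup.mem_inf.2 ⟨hcP, hCN hcC⟩, hcC⟩)))
      have hwnN : w * n ∈ N0 := mul_mem (hCN hw) hn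
      have hconj : B1 ≤ B1.comap (MulAut.conj (w * n)).toMonoidHom := sup_le
        (fun u hu => Subgroup.mem_sup_left ((Subgroup.mem_normalizer_iff.1 hwnN u).1 hu))
        (fun u hu => Subgroup.mem_sup_right (hwn u hu))
      have hgood : w * n ∈ goodSub M B0 := ⟨hwnN, fun u hu =>
        hup B1 hB1P (hB0card ▸ Fusion.card_lt_card hlt1) (w * n) (fun v hv => hB1P (hconj hv)) u
          (Subgroup.mem_sup_left hu)⟩
      have := mul_mem (inv_mem (centralizer_le_goodSub M B0 hw)) hgood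
      rwa [inv_mul_cancel_left] at this
  -- transport to the fully normalised conjugate
  have hto : ∀ (A : Subgroup G) (a : G), A ≤ (P : Subgroup G) → A.map (MulAut.conj a).toMonoidHom = B0 →
      Nat.card A = Nat.card B →
      ∃ r : G, A.map (MulAut.conj r).toMonoidHom = B0 ∧ ∀ u ∈ A, u⁻¹ * (r * u * r⁻¹) ∈ M := by
    intro A a hA ha hcard
    have hAlt : A < (P : Subgroup G) := lt_of_le_of_ne hA fun e => by
      have := Fusion.card_lt_card hlt
      rw [e] at hcard
      omega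
    set A1 := (P : Subgroup G) ⊓ Subgroup.normalizer (A : Set G) with hA1
    have hA1N : A1.map (MulAut.conj a).toMonoidHom ≤ N0 := by
      refine (Subgroup.map_mono inf_le_right).trans ?_
      rw [hN0, ← ha]
      exact (Fusion.cj_normalizer a A).le
    obtain ⟨m, hm, hmle⟩ := hsyl.exists_conj_le hA1N ((P.2.to_le inf_le_left : IsPGroup p A1).map _)
    refine ⟨m * a, ?_, fun u hu => ?_⟩
    · calc A.map (MulAut.conj (m * a)).toMonoidHom = Fusion.cj m (Fusion.cj a A) :=
            (Fusion.cj_cj m a A).symm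
        _ = Fusion.cj m B0 := by rw [show Fusion.cj a A = B0 from ha]
        _ = B0 := Fusion.cj_eq_of_mem hm
    · refine hup A1 inf_le_left ?_ (m * a) (fun v hv => ?_) u ⟨hA hu, Subgroup.le_normalizer hu⟩
      · rw [← hcard]
        exact Fusion.card_lt_card (Fusion.lt_normalizer_inf P.2 hAlt)
      · have := (Subgroup.mem_inf.1 (hmle _ ⟨v, hv, rfl⟩)).1
        simp only [MulEquiv.coe_toMonoidHom, MulAut.conj_apply] at this
        convert this using 1
        group
  obtain ⟨r, hr, hrg⟩ := hto B h hBP rfl rfl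
  set B' := B.map (MulAut.conj g).toMonoidHom with hB'
  have hB'P : B' ≤ (P : Subgroup G) := by rintro _ ⟨u, hu, rfl⟩; exact hgB u hu
  obtain ⟨r', hr', hrg'⟩ := hto B' (h * g⁻¹) hB'P (by
      show Fusion.cj (h * g⁻¹) (Fusion.cj g B) = _
      rw [Fusion.cj_cj, inv_mul_cancel_right]) (Subgroup.card_map_of_injective (MulAut.conj g).injective)
  have hn : r' * g * r⁻¹ ∈ N0 := by
    refine Fusion.cj_eq_iff_mem_normalizer.1 ?_
    have e1 : Fusion.cj r⁻¹ B0 = B := by
      rw [← hr]; exact Fusion.cj_inv_cj r B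
    calc Fusion.cj (r' * g * r⁻¹) B0 = Fusion.cj r' (Fusion.cj g (Fusion.cj r⁻¹ B0)) := by
          rw [Fusion.cj_cj g r⁻¹ B0, Fusion.cj_cj r' (g * r⁻¹) B0, mul_assoc]
      _ = B0 := by rw [e1]; exact hr'
  intro u hu
  have h1 := hrg u hu
  have h2 := (hcore hn).2 (r * u * r⁻¹) (hr.le ⟨u, hu, rfl⟩)
  have h3 := hrg' (g * u * g⁻¹) ⟨u, hu, rfl⟩
  have h4 := M.mul_mem (M.mul_mem h1 h2) (M.inv_mem h3)
  convert h4 using 1
  group

/-- The normaliser of `P` controls transfer. -/
theorem inf_commutator_le : (P : Subgroup G) ⊓ commutator G ≤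
    ⁅(P : Subgroup G), Subgroup.normalizer ((P : Subgroup G) : Set G)⁆ := by
  rw [inf_comm, Subgroup.commutator_inf_eq_focalSubgroup, Subgroup.focalSubgroup_def,
    Subgroup.closure_le]
  rintro _ ⟨hy, v, hv, u, rfl⟩
  have hu : u * v⁻¹ * u⁻¹ ∈ (P : Subgroup G) := by
    have h0 := mul_mem (inv_mem hv) hy
    rw [commutatorElement_def] at h0
    simpa [mul_assoc] using h0
  have hle : Subgroup.zpowers v⁻¹ ≤ (P : Subgroup G) := Subgroup.zpowers_le.2 (inv_mem hv)
  have h1 : ∀ w ∈ Subgroup.zpowers v⁻¹, u * w * u⁻¹ ∈ (P : Subgroup G) := by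
    intro w hw
    have : Subgroup.zpowers v⁻¹ ≤ (P : Subgroup G).comap (MulAut.conj u).toMonoidHom :=
      Subgroup.zpowers_le.2 hu
    exact this hw
  have h := good_all hp2 P hxP hxo hiso hrank (Nat.card (P : Subgroup G)) _ u hle h1
    (Nat.le_add_left _ _) v⁻¹ (Subgroup.mem_zpowers _)
  show ⁅v, u⁆ ∈ _
  have e : v * u * v⁻¹ * u⁻¹ = v⁻¹⁻¹ * (u * v⁻¹ * u⁻¹) := by group
  rw [commutatorElement_def, e]
  exact h

/-- If `P` lies in the derived group, `N(P)` has no nontrivial fixed points on `P / K`. -/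
theorem mem_of_fixed (hfull : (P : Subgroup G) ≤ commutator G) {K : Subgroup G}
    (hKP : K ≤ (P : Subgroup G))
    (hPK : ⁅(P : Subgroup G), (P : Subgroup G)⁆ ≤ K)
    (hKN : ∀ n ∈ Subgroup.normalizer ((P : Subgroup G) : Set G), ∀ k ∈ K, n * k * n⁻¹ ∈ K)
    {u : G} (hu : u ∈ (P : Subgroup G))
    (hfix : ∀ n ∈ Subgroup.normalizer ((P : Subgroup G) : Set G), n * u * n⁻¹ * u⁻¹ ∈ K) : u ∈ K := by
  classical
  set N := Subgroup.normalizer ((P : Subgroup G) : Set G) with hN
  have hPN : (P : Subgroup G) ≤ N := Subgroup.le_normalizer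
  haveI : (K.subgroupOf N).Normal := ⟨fun k hk n => hKN n n.2 k hk⟩
  set π := QuotientGroup.mk' (K.subgroupOf N) with hπ
  set A := ((P : Subgroup G).subgroupOf N).map π with hA
  let f : A →* Abelianization A := Abelianization.of
  have hAab : ∀ a b : A, a * b = b * a := by
    rintro ⟨_, a, ha, rfl⟩ ⟨_, b, hb, rfl⟩
    apply Subtype.ext
    show π a * π b = π b * π a
    have h1 : π (a * b * (b * a)⁻¹) = 1 := by
      refine (QuotientGroup.eq_one_iff (N := K.subgroupOf N) _).2 ?_
      have h2 := hPK (Subgroup.commutator_mem_commutator (show (a : G) ∈ (P : Subgroup G) from ha)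
        (show (b : G) ∈ (P : Subgroup G) from hb))
      rw [commutatorElement_def] at h2
      show ((a * b * (b * a)⁻¹ : N) : G) ∈ K
      simpa [mul_assoc] using h2
    rw [map_mul, map_inv, map_mul, map_mul] at h1
    exact mul_inv_eq_one.1 h1
  letI : CommGroup A := { (inferInstance : Group A) with mul_comm := hAab }
  have hcen : ∀ w : ↥N ⧸ K.subgroupOf N, w * π ⟨u, hPN hu⟩ = π ⟨u, hPN hu⟩ * w := by
    intro w
    obtain ⟨n, rfl⟩ := QuotientGroup.mk'_surjective _ w
    have h1 : π (n * ⟨u, hPN hu⟩ * n⁻¹ * (⟨u, hPN hu⟩ : N)⁻¹) = 1 :=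
      (QuotientGroup.eq_one_iff (N := K.subgroupOf N) _).2 (hfix n n.2)
    rw [map_mul, map_mul, map_mul, map_inv, map_inv] at h1
    exact mul_inv_eq_iff_eq_mul.1 (mul_inv_eq_one.1 h1)
  set V := MonoidHom.transfer (H := A) (MonoidHom.id A) with hV
  have hpow := MonoidHom.transfer_eq_pow (H := A) (MonoidHom.id A) (π ⟨u, hPN hu⟩) (fun i g0 _ => by
    have hc : Commute (g0⁻¹) (π ⟨u, hPN hu⟩ ^ i) := (show Commute g0⁻¹ (π ⟨u, hPN hu⟩) from hcen g0⁻¹).pow_right i
    rw [hc.eq, inv_mul_cancel_right])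
  -- `π u` is a product of commutators of the quotient
  have hker : (P : Subgroup G).subgroupOf N ≤ V.ker.comap π := by
    have hle : ⁅(P : Subgroup G), N⁆ ≤ ((V.ker.comap π)).map N.subtype := by
      rw [Subgroup.commutator_le]
      intro a ha n hn
      refine ⟨⁅(⟨a, hPN ha⟩ : N), ⟨n, hn⟩⁆, ?_, rfl⟩
      show V (π ⁅(⟨a, hPN ha⟩ : N), ⟨n, hn⟩⁆) = 1
      rw [map_commutatorElement, map_commutatorElement, commutatorElement_eq_one_iff_mul_comm]
      exact mul_comm _ _
    intro w hw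
    obtain ⟨w', hw', hww⟩ := hle (inf_commutator_le hp2 P hxP hxo hiso hrank
      (Subgroup.mem_inf.2 ⟨hw, hfull hw⟩))
    exact Subtype.ext hww ▸ hw'
  have h1 : V (π ⟨u, hPN hu⟩) = 1 := hker (show (⟨u, hPN hu⟩ : N) ∈ (P : Subgroup G).subgroupOf N from hu)
  rw [hV, hpow] at h1
  have h2 : π ⟨u, hPN hu⟩ ^ A.index = 1 := congrArg Subtype.val h1
  have hidx : ¬ p ∣ A.index := by
    intro h
    refine P.not_dvd_index ?_
    have h3 : A.index ∣ ((P : Subgroup G).subgroupOf N).index := by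
      rw [hA]; exact Subgroup.index_map_dvd _ (QuotientGroup.mk'_surjective _)
    exact (h.trans h3).trans (Subgroup.relIndex_dvd_index_of_le hPN)
  obtain ⟨i, hi⟩ := P.2 ⟨u, hu⟩
  have h4 : π ⟨u, hPN hu⟩ ^ p ^ i = 1 := by
    rw [← map_pow, show (⟨u, hPN hu⟩ : N) ^ p ^ i = 1 from Subtype.ext (congrArg Subtype.val hi :), map_one]
  have h5 : π ⟨u, hPN hu⟩ = 1 := orderOf_eq_one_iff.1 (Nat.eq_one_of_dvd_coprimes
    (((hp.out.coprime_iff_not_dvd.2 hidx).pow_left i)) (orderOf_dvd_of_pow_eq_one h4)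
    (orderOf_dvd_of_pow_eq_one h2))
  exact (QuotientGroup.eq_one_iff (N := K.subgroupOf N) _).1 h5

end Cfsg.Agent.IsoRankTwo
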